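import Mathlib
import Cfsg.Agent.QT.Defs
import Cfsg.Agent.GT.FStar
import Cfsg.Agent.QT.Rank
import Cfsg.Agent.GT.PGroupCyclicNormal
import Cfsg.Agent.GT.ExtraspecialDim
import Cfsg.Agent.S0088

/-! # QT: the solvable residual and radical; 𝒞-components of (strongly quasithin) groups, no K-facts -/

set_option autoImplicit false
set_option linter.unusedSectionVars false
open Cfsg Subgroup Cfsg.Agent.GT
open scoped commutatorElement

namespace Cfsg.Agent.QT

universe u

section Res

variable {H X : Type*} [Group H] [Group X]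

/-- The largest perfect subgroup of `Y`. -/
def res (Y : Subgroup H) : Subgroup H := sSup {L | ⁅L, L⁆ = L ∧ L ≤ Y}

theorem res_le (Y : Subgroup H) : res Y ≤ Y := sSup_le fun _ h => h.2

theorem res_perfect (Y : Subgroup H) : ⁅res Y, res Y⁆ = res Y := perfect_sSup fun _ h => h.1

theorem le_res {L Y : Subgroup H} (hL : ⁅L, L⁆ = L) (h : L ≤ Y) : L ≤ res Y := le_sSup ⟨hL, h⟩

theorem norm_res (Y : Subgroup H) : normalizer (Y : Set H) ≤ normalizer (res Y : Set H) :=
  le_normalizer_sSup_of_conj_closed fun _ hg _ hU => ⟨perfect_map hU.1 _,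
    (map_mono hU.2).trans (map_conj_eq_of_mem_normalizer hg).le⟩

theorem res_isSubnormal {Y : Subgroup H} (h : Y.IsSubnormal) : (res Y).IsSubnormal :=
  (SubnormalIn.of_le_normalizer (res_le Y) (le_normalizer.trans (norm_res Y))).isSubnormal h

theorem res_map [Finite H] (φ : H →* X) (Y : Subgroup H) : (res Y).map φ = res (Y.map φ) := by
  refine le_antisymm (le_res (perfect_map (res_perfect Y) φ) (map_mono (res_le Y))) ?_
  induction Y using WellFoundedLT.induction with
  | ind Y ih =>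
  rcases (commutator_le_self Y).eq_or_lt with e | e
  · exact (res_le _).trans (map_mono (le_res e le_rfl))
  · refine le_trans (le_res (res_perfect _) ?_) ((ih _ e).trans
      (map_mono (le_res (res_perfect _) ((res_le _).trans e.le))))
    rw [map_commutator, ← res_perfect]
    exact commutator_mono (res_le _) (res_le _)

theorem isSolvable_of_res [Finite H] {Y : Subgroup H} (h : res Y = ⊥) : Group.IsSolvable Y := by
  refine Group.isSolvable_iff_commutator_lt.2 fun K hK => (commutator_le_self K).lt_of_ne fun e => hK ?_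
  exact (map_eq_bot_iff_of_injective K Y.subtype_injective).1
    (le_bot_iff.1 (h ▸ le_res (perfect_map e _) (map_subtype_le K)))

theorem perfect_subgroupOf {P N : Subgroup H} (hP : ⁅P, P⁆ = P) (h : P ≤ N) :
    ⁅P.subgroupOf N, P.subgroupOf N⁆ = P.subgroupOf N := by
  apply map_injective N.subtype_injective
  rw [map_commutator, subgroupOf_map_subtype, inf_eq_left.2 h, hP]

theorem solv_map {D : Subgroup H} (hs : Group.IsSolvable D) (φ : H →* X) : Group.IsSolvable (D.map φ) :=
  isSolvable_map D φ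

theorem solv_of_le {D E : Subgroup H} (hs : Group.IsSolvable E) (h : D ≤ E) : Group.IsSolvable D :=
  isSolvable_of_le h

theorem perfect_le_of_norm {K D P : Subgroup H} (hD : D ≤ normalizer (K : Set H)) (hs : Group.IsSolvable D)
    (hP : ⁅P, P⁆ = P) (h : P ≤ K ⊔ D) : P ≤ K := by
  have hN := sup_le le_normalizer hD
  have h1 := perfect_le_ker_of_isSolvable (perfect_subgroupOf hP (h.trans hN))
    (QuotientGroup.mk' (K.subgroupOf (normalizer (K : Set H))))
    (solv_of_le (solv_map (isSolvable_subgroupOf D (normalizer (K : Set H))) (QuotientGroup.mk' _)) (by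
      refine (map_mono (comap_mono h)).trans ?_
      rw [comap_subtype, subgroupOf_sup le_normalizer hD, Subgroup.map_sup, QuotientGroup.map_mk'_self,
        bot_sup_eq]))
  rw [QuotientGroup.ker_mk'] at h1
  exact fun x hx => h1 (show (⟨x, hN (h hx)⟩ : normalizer (K : Set H)) ∈ P.subgroupOf _ from hx)

/-- A perfect subgroup whose `r'`-elements lie in a normal subgroup lies in it. -/
theorem perfect_le_of_coprime [Finite H] {r : ℕ} [Fact r.Prime] {L N : Subgroup H} [N.Normal] (hL : ⁅L, L⁆ = L)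
    (h : ∀ x ∈ L, (orderOf x).Coprime r → x ∈ N) : L ≤ N := by
  rw [← QuotientGroup.ker_mk' N]
  refine perfect_le_ker_of_isSolvable hL _ ?_
  have : IsPGroup r (L.map (QuotientGroup.mk' N)) := by
    rintro ⟨_, x, hx, rfl⟩
    obtain ⟨k, m, hm, e⟩ := Nat.exists_eq_pow_mul_and_not_dvd (orderOf_pos x).ne' r (Fact.out : r.Prime).ne_one
    refine ⟨k, Subtype.ext ?_⟩
    rw [SubgroupClass.coe_pow, ← map_pow, OneMemClass.coe_one, QuotientGroup.mk'_apply, QuotientGroup.eq_one_iff]
    refine h _ (pow_mem hx _) (Nat.Coprime.coprime_dvd_left (orderOf_dvd_of_pow_eq_one (n := m) ?_)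
      ((Nat.Prime.coprime_iff_not_dvd Fact.out).2 hm).symm)
    rw [← pow_mul, ← e, pow_orderOf_eq_one]
  have := this.isNilpotent
  infer_instance

/-- The largest solvable normal subgroup. -/
def rad (H : Type*) [Group H] : Subgroup H := sSup {N | N.Normal ∧ Group.IsSolvable N}

instance rad_normal : (rad H).Normal := sSup_normal _ fun _ h => h.1

theorem isSolvable_rad [Finite H] : Group.IsSolvable (rad H) :=
  sSup_normal_prop (fun N => Group.IsSolvable N) inferInstance fun A B _ _ _ _ => isSolvable_sup A B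

theorem le_rad [Finite H] {N : Subgroup H} (hN : N.IsSubnormal) (hs : Group.IsSolvable N) : N ≤ rad H := by
  obtain ⟨M, h1, h2, h3⟩ := exists_normal_isSolvable_of_isSubnormal hN hs
  exact h2.trans (le_sSup ⟨h1, h3⟩)

theorem rad_quotient [Finite H] : rad (H ⧸ rad H) = ⊥ := by
  have := isSolvable_rad (H := H)
  have := isSolvable_rad (H := H ⧸ rad H)
  rw [← map_comap_eq_self_of_surjective (QuotientGroup.mk'_surjective (rad H)) (rad _), Subgroup.map_eq_bot_iff,
    QuotientGroup.ker_mk']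
  exact le_rad (Normal.isSubnormal inferInstance) (isSolvable_comap_mk' _)

end Res

variable {H : Type u} [Group H] [Finite H]

theorem calC_solvable_inf {L N : Subgroup H} (hL : L ∈ calC H) (hN : N.IsSubnormal) (h : ¬ L ≤ N) :
    Group.IsSolvable (L ⊓ N : Subgroup H) := by
  refine isSolvable_of_res (by_contra fun e => hL.2.2.2 _ ((res_le _).trans_lt (inf_lt_left.2 h))
    ⟨e, res_perfect _, res_isSubnormal (hL.2.2.1.inf hN)⟩)

theorem calC_solvable_of_lt {L N : Subgroup H} (hL : L ∈ calC H) (hN : N < L)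
    (hn : L ≤ normalizer (N : Set H)) : Group.IsSolvable N :=
  inf_eq_right.2 hN.le ▸ calC_solvable_inf hL ((SubnormalIn.of_le_normalizer hN.le hn).isSubnormal hL.2.2.1)
    hN.not_ge

theorem calC_not_le {L S : Subgroup H} (hL : L ∈ calC H) (hS : Group.IsSolvable S) : ¬ L ≤ S :=
  fun h => hL.1 (perfect_eq_bot_of_le_solvable hL.2.1 h hS)

theorem calC_eq_of_le {L₁ L₂ : Subgroup H} (h₁ : L₁ ∈ calC H) (h₂ : L₂ ∈ calC H) (h : L₁ ≤ L₂) : L₁ = L₂ :=
  by_contra fun e => h₂.2.2.2 _ (h.lt_of_ne e) ⟨h₁.1, h₁.2.1, h₁.2.2.1⟩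

/-- `(K S)^∞ = K` for `K` perfect subnormal and `S` solvable normal. -/
theorem perfect_le_of_le_sup {K S P : Subgroup H} (hK : K.IsSubnormal) (hK' : ⁅K, K⁆ = K)
    [S.Normal] (hS : Group.IsSolvable S) (hP : ⁅P, P⁆ = P) (h : P ≤ K ⊔ S) : P ≤ K := by
  refine (le_res hP h).trans ((SubnormalIn.of_isSubnormal hK (le_sup_left (b := S))).induction_up
    (motive := fun J => res J ≤ K) (res_le K) fun J J' h1 h2 h3 h4 h5 => ?_)
  have e : res J = K := le_antisymm h5 (le_res hK' h1.le)
  refine perfect_le_of_norm (D := J' ⊓ S) (inf_le_left.trans (h3.trans (e ▸ norm_res J)))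
    (solv_of_le hS inf_le_right) (res_perfect _) ((res_le _).trans fun x hx => ?_)
  obtain ⟨k, hk, s, hs, rfl⟩ := mem_sup_of_normal_right.1 (h4.le hx)
  exact mul_mem (mem_sup_left hk) (mem_sup_right ⟨(mul_mem_cancel_left (h2 (h1.le hk))).1 hx, hs⟩)

theorem res_sup {K S : Subgroup H} (hK : K.IsSubnormal) (hK' : ⁅K, K⁆ = K) [S.Normal]
    (hS : Group.IsSolvable S) : res (K ⊔ S) = K :=
  le_antisymm (perfect_le_of_le_sup hK hK' hS (res_perfect _) (res_le _)) (le_res hK' le_sup_left)

theorem calC_map {X : Type*} [Group X] {L : Subgroup H} (hL : L ∈ calC H) {φ : H →* X}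
    (hφ : Function.Surjective φ) (hne : L.map φ ≠ ⊥) : L.map φ ∈ calC X := by
  refine ⟨hne, perfect_map hL.2.1 φ, hL.2.2.1.map hφ, fun K hK h => h.1 ?_⟩
  refine perfect_eq_bot_of_le_solvable h.2.1 ?_
    (solv_map (calC_solvable_inf hL (h.2.2.comap φ) fun e => hK.not_ge (map_le_iff_le_comap.2 e)) φ)
  intro x hx
  obtain ⟨y, hy, rfl⟩ := hK.le hx
  exact ⟨y, ⟨hy, hx⟩, rfl⟩

theorem calC_map' {X : Type*} [Group X] {L : Subgroup H} (hL : L ∈ calC H) {φ : H →* X}
    (hφ : Function.Surjective φ) (hs : Group.IsSolvable φ.ker) : L.map φ ∈ calC X :=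
  calC_map hL hφ fun e => calC_not_le hL hs ((Subgroup.map_eq_bot_iff _).1 e)

theorem calC_map_inj {X : Type*} [Group X] {L₁ L₂ : Subgroup H} (h₁ : L₁ ∈ calC H) (h₂ : L₂ ∈ calC H)
    {φ : H →* X} (hs : Group.IsSolvable φ.ker) (h : L₁.map φ ≤ L₂.map φ) : L₁ = L₂ :=
  calC_eq_of_le h₁ h₂ (perfect_le_of_le_sup h₂.2.2.1 h₂.2.1 hs h₁.2.1 (map_le_map_iff.1 h))

theorem comap_normalizer_calC {X : Type*} [Group X] {L : Subgroup H} (hL : L ∈ calC H) {φ : H →* X}
    (hφ : Function.Surjective φ) (hs : Group.IsSolvable φ.ker) :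
    (normalizer (L.map φ : Set X)).comap φ = normalizer (L : Set H) := by
  refine le_antisymm ?_ (map_le_iff_le_comap.1 (le_normalizer_map φ))
  rw [comap_normalizer_eq_of_surjective _ hφ, comap_map_eq]
  exact (norm_res _).trans (by rw [res_sup hL.2.2.1 hL.2.1 hs])

theorem isComponent_of_calC {L : Subgroup H} (hL : L ∈ calC H)
    (h : ∀ N < L, N.IsSubnormal → Group.IsSolvable N → N ≤ centralizer (L : Set H)) : IsComponent L :=
  ⟨hL.2.2.1, isQuasisimple_of_normal_le_centralizer hL.2.1 hL.1 fun N hN hn =>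
    h N hN ((SubnormalIn.of_le_normalizer hN.le hn).isSubnormal hL.2.2.1) (calC_solvable_of_lt hL hN hn)⟩

theorem isSolvable_ker_rad : Group.IsSolvable (QuotientGroup.mk' (rad H)).ker := by
  rw [QuotientGroup.ker_mk']
  exact isSolvable_rad

/-- The image of a 𝒞-component modulo the solvable radical is a component. -/
theorem calC_isComponent_map {L : Subgroup H} (hL : L ∈ calC H) :
    IsComponent (L.map (QuotientGroup.mk' (rad H))) :=
  isComponent_of_calC (calC_map' hL (QuotientGroup.mk'_surjective _) isSolvable_ker_rad) fun _ _ h1 h2 =>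
    ((le_rad h1 h2).trans rad_quotient.le).trans bot_le

theorem calC_le_normalizer {L₁ L₂ : Subgroup H} (h₁ : L₁ ∈ calC H) (h₂ : L₂ ∈ calC H) :
    L₂ ≤ normalizer (L₁ : Set H) := by
  rw [← comap_normalizer_calC h₁ (QuotientGroup.mk'_surjective _) isSolvable_ker_rad, ← map_le_iff_le_comap]
  exact (calC_isComponent_map h₂).le_normalizer (calC_isComponent_map h₁)

theorem le_normalizer_calC_of_solvable {L S : Subgroup H} (hL : L ∈ calC H) [S.Normal]
    (hS : Group.IsSolvable S) : S ≤ normalizer (L : Set H) :=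
  (le_sup_right.trans le_normalizer).trans ((norm_res (L ⊔ S)).trans (by rw [res_sup hL.2.2.1 hL.2.1 hS]))

theorem calC_subgroupOf {L J : Subgroup H} (hL : L ∈ calC H) (hJ : L ≤ J) :
    L.subgroupOf J ∈ calC J := by
  have e : (L.subgroupOf J).map J.subtype = L := map_subgroupOf_eq_of_le hJ
  refine ⟨fun h => hL.1 (by rw [← e, h, Subgroup.map_bot]), perfect_subgroupOf hL.2.1 hJ, hL.2.2.1.subgroupOf,
    fun K hK h => hL.2.2.2 (K.map J.subtype) (e ▸ (map_lt_map_iff_of_injective J.subtype_injective).2 hK)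
      ⟨fun h' => h.1 ((map_eq_bot_iff_of_injective K J.subtype_injective).1 h'), perfect_map h.2.1 _, ?_⟩⟩
  exact ((subnormalIn_map_subtype_iff.2 h.2.2).mono (e ▸ map_mono hK.le) hJ).isSubnormal hL.2.2.1

theorem calC_conj {L : Subgroup H} (hL : L ∈ calC H) (g : H) :
    L.map (MulAut.conj g).toMonoidHom ∈ calC H :=
  calC_map hL (MulAut.conj g).surjective fun e =>
    hL.1 ((map_eq_bot_iff_of_injective L (MulAut.conj g).injective).1 e)

theorem calC_of_isComponent {L : Subgroup H} (hL : IsComponent L) : L ∈ calC H := by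
  refine ⟨hL.ne_bot, hL.commutator_eq, hL.1, fun K hK h => h.1 (perfect_eq_bot_of_le_centralizer h.2.1 ?_)⟩
  exact ((hL.2.eq_or_le_centralizer (SubnormalIn.of_isSubnormal h.2.2 hK.le)).resolve_left hK.ne).trans
    (centralizer_le hK.le)

theorem exists_calC_map {X : Type*} [Group X] (φ : H →* X) (hφ : Function.Surjective φ)
    (hs : Group.IsSolvable φ.ker) {K : Subgroup X} (hK : K ∈ calC X) :
    ∃ L ∈ calC H, L.map φ = K := by
  have e : (res (K.comap φ)).map φ = K := by
    rw [res_map, map_comap_eq_self_of_surjective hφ]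
    exact le_antisymm (res_le K) (le_res hK.2.1 le_rfl)
  refine ⟨_, ⟨fun h => hK.1 (by rw [← e, h, Subgroup.map_bot]), res_perfect _, res_isSubnormal (hK.2.2.1.comap φ),
    fun J hJ h => hJ.not_ge (perfect_le_of_le_sup h.2.2 h.2.1 hs (res_perfect _) ?_)⟩, e⟩
  rw [← Subgroup.map_le_map_iff, e]
  refine ((e ▸ map_mono hJ.le : J.map φ ≤ K).eq_or_lt.resolve_right fun h' => hK.2.2.2 _ h'
    ⟨fun h'' => h.1 (perfect_eq_bot_of_le_solvable h.2.1 ((Subgroup.map_eq_bot_iff _).1 h'') hs),
      perfect_map h.2.1 φ, h.2.2.map hφ⟩).ge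

/-- The simple quotient of a 𝒞-component is a quotient of each of its nontrivial images. -/
theorem calC_exists_hom_map {X K : Type*} [Group X] [Group K] [IsSimpleGroup K] {L : Subgroup H}
    (hL : L ∈ calC H) (hna : ¬ IsMulCommutative K) {φ : L →* K} (hφ : Function.Surjective φ) (ψ : H →* X)
    (hne : ¬ L ≤ ψ.ker) : ∃ φ' : L.map ψ →* K, Function.Surjective φ' := by
  have h1 : (ψ.subgroupMap L).ker ≤ φ.ker := by
    rw [ker_subgroupMap, ← Subgroup.map_eq_bot_iff]
    refine (Normal.eq_bot_or_eq_top (Normal.map inferInstance φ hφ)).resolve_right fun e => hna ?_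
    have := calC_solvable_inf hL (Normal.isSubnormal inferInstance) hne
    have h2 := solv_map (isSolvable_subgroupOf (L ⊓ ψ.ker) L) φ
    rw [inf_subgroupOf_left, e] at h2
    exact ⟨⟨IsSimpleGroup.comm_iff_isSolvable.2 (isSolvable_of_mulEquiv topEquiv)⟩⟩
  refine ⟨(ψ.subgroupMap L).liftOfSurjective (ψ.subgroupMap_surjective L) ⟨φ, h1⟩, fun k => ?_⟩
  obtain ⟨x, rfl⟩ := hφ k
  exact ⟨ψ.subgroupMap L x, by simp⟩

theorem isSolvable_ker_two : Group.IsSolvable (QuotientGroup.mk' (pCore 2 H)).ker := by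
  rw [QuotientGroup.ker_mk']
  have := (isPGroup_pCore (G := H) 2).isNilpotent
  infer_instance

theorem sqt_quot (hS : IsStronglyQuasithin H) : IsStronglyQuasithin (H ⧸ pCore 2 H) :=
  sqt_quotient_two hS _ (isPGroup_pCore 2)

/-- The action on `O_r(H)` through `GL₂(r)`, for perfect subgroups. -/
theorem exists_gl2 (hS : IsStronglyQuasithin H) {r : ℕ} [Fact r.Prime] (hr : r ≠ 2) :
    ∃ φ : H →* GL (Fin 2) (ZMod r), ∀ L : Subgroup H, ⁅L, L⁆ = L → L ≤ φ.ker →
      L ≤ centralizer (pCore r H : Set H) := by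
  obtain ⟨φ, hφ⟩ := exists_hom_gl2 hr (pCore r H) (isPGroup_pCore r) ((hS r Fact.out hr).subgroup _)
  exact ⟨φ, fun L hL h => perfect_le_of_coprime (r := r) hL fun x hx => hφ x (h hx)⟩

theorem calC_inf_solvable {L₁ L₂ : Subgroup H} (h₁ : L₁ ∈ calC H) (h₂ : L₂ ∈ calC H) (hne : L₁ ≠ L₂) :
    Group.IsSolvable (L₁ ⊓ L₂ : Subgroup H) :=
  calC_solvable_inf h₁ h₂.2.2.1 fun e => hne (calC_eq_of_le h₁ h₂ e)

theorem calC_comm_le_inf {L₁ L₂ : Subgroup H} (h₁ : L₁ ∈ calC H) (h₂ : L₂ ∈ calC H) : ⁅L₁, L₂⁆ ≤ L₁ ⊓ L₂ :=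
  le_inf (le_normalizer_iff_commutator_le_left.1 (calC_le_normalizer h₁ h₂))
    (le_normalizer_iff_commutator_le_right.1 (calC_le_normalizer h₂ h₁))

theorem calC_comm_bot (hS : IsStronglyQuasithin H) (h2 : pCore 2 H = ⊥) {L₁ L₂ : Subgroup H} (h₁ : L₁ ∈ calC H)
    (h₂ : L₂ ∈ calC H) (hne : L₁ ≠ L₂) : ⁅L₁, L₂⁆ = ⊥ := by
  have hs := calC_inf_solvable h₁ h₂ hne
  have h3 : ∀ r : ℕ, r.Prime → pCore r H ≤ centralizer (L₁ : Set H) ∨ pCore r H ≤ centralizer (L₂ : Set H) := by
    intro r hr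
    by_cases e : r = 2
    · exact Or.inl (by rw [e, h2]; exact bot_le)
    have : Fact r.Prime := ⟨hr⟩
    obtain ⟨φ, hφ⟩ := exists_gl2 hS e
    refine (gl2_perfect_pair (L₁.map φ) (L₂.map φ) (perfect_map h₁.2.1 φ) (perfect_map h₂.2.1 φ)
      ((map_mono (calC_le_normalizer h₂ h₁)).trans (le_normalizer_map φ))
      ((map_mono (calC_le_normalizer h₁ h₂)).trans (le_normalizer_map φ))
      (map_commutator L₁ L₂ φ ▸ solv_map (solv_of_le hs (calC_comm_le_inf h₁ h₂)) φ)).imp (fun h => ?_) fun h => ?_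
    · exact le_centralizer_iff.1 (hφ _ h₁.2.1 ((Subgroup.map_eq_bot_iff _).1 h))
    · exact le_centralizer_iff.1 (hφ _ h₂.2.1 ((Subgroup.map_eq_bot_iff _).1 h))
  have h4 : L₁ ⊓ L₂ ≤ fittingSubgroup H := le_fitting_of_isSubnormal_of_isSolvable (h₁.2.2.1.inf h₂.2.2.1) hs
    (le_centralizer_iff.1 (fitting_le_iff.2 fun r hr => (h3 r hr).elim
      (fun h => h.trans (centralizer_le fun _ h => h.1)) fun h => h.trans (centralizer_le fun _ h => h.2)))
  have h5 : fittingSubgroup H ≤ (centralizer (L₂ : Set H)).normalCore ⊔ (centralizer (L₁ : Set H)).normalCore :=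
    fitting_le_iff.2 fun r hr => (h3 r hr).elim (fun h => (normal_le_normalCore.2 h).trans le_sup_right)
      fun h => (normal_le_normalCore.2 h).trans le_sup_left
  have h6 := perfect_commutator_eq_bot (X := L₂.map (QuotientGroup.mk' (centralizer (L₂ : Set H)).normalCore))
    (perfect_map h₁.2.1 (QuotientGroup.mk' (centralizer (L₂ : Set H)).normalCore)) (by
      rw [← map_commutator, eq_bot_iff]
      refine (commutator_mono (map_mono (((calC_comm_le_inf h₂ h₁).trans (inf_comm _ _).le).trans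
        (h4.trans h5))) le_rfl).trans ?_
      rw [Subgroup.map_sup, QuotientGroup.map_mk'_self, bot_sup_eq, ← map_commutator,
        commutator_eq_bot_iff_le_centralizer.2 (normalCore_le _), Subgroup.map_bot])
  rw [← map_commutator, Subgroup.map_eq_bot_iff, QuotientGroup.ker_mk', commutator_comm] at h6
  exact commutator_eq_bot_iff_le_centralizer.2 (perfect_le_centralizer h₂.2.1 (h6.trans (normalCore_le _)))

theorem calC_comm (hS : IsStronglyQuasithin H) {L₁ L₂ : Subgroup H} (h₁ : L₁ ∈ calC H)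
    (h₂ : L₂ ∈ calC H) (hne : L₁ ≠ L₂) : ⁅L₁, L₂⁆ ≤ pCore 2 H := by
  have := calC_comm_bot (sqt_quot hS) pCore_quotient_pCore
    (calC_map' h₁ (QuotientGroup.mk'_surjective _) isSolvable_ker_two)
    (calC_map' h₂ (QuotientGroup.mk'_surjective _) isSolvable_ker_two)
    fun e => hne (calC_map_inj h₁ h₂ isSolvable_ker_two e.le)
  rwa [← map_commutator, Subgroup.map_eq_bot_iff, QuotientGroup.ker_mk'] at this

/-- A perfect group with cyclic Sylow subgroups of odd order and trivial 2-core has trivial Fitting subgroup. -/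
theorem fitting_eq_bot_of_oddCyc {L : Type*} [Group L] [Finite L] (hL : commutator L = ⊤) (h2 : pCore 2 L = ⊥)
    (h : OddCyc L) : fittingSubgroup L = ⊥ := by
  refine fitting_eq_bot_iff.2 fun r hr => ?_
  by_cases e : r = 2
  · rw [e, h2]
  have : Fact r.Prime := ⟨hr⟩
  obtain ⟨P⟩ : Nonempty (Sylow r L) := inferInstance
  have hP : IsCyclic P := PG.isCyclic_of_pRankLE_one_of_odd e P.isPGroup' ((h r hr e).subgroup _)
  have hO : IsCyclic (pCore r L) :=
    PG.isCyclic_of_pRankLE_one_of_odd e (isPGroup_pCore r) ((h r hr e).subgroup _)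
  rw [eq_bot_iff, ← S0088.result (P : Subgroup L) inferInstance P.card_coprime_index, hL, inf_top_eq]
  refine le_inf (pCore_le_sylow P) ?_
  rw [← centralizer_univ, ← coe_top, le_centralizer_iff, ← hL, commutator_def, commutator_le]
  exact fun x _ y _ => PG.commutatorElement_mem_centralizer_of_isCyclic hO
    (by simp [normalizer_eq_top]) (by simp [normalizer_eq_top])

theorem exists_odd_prime_dvd {L : Subgroup H} (hL : L ∈ calC H) : ∃ p : ℕ, p.Prime ∧ p ≠ 2 ∧ p ∣ Nat.card L := by
  by_contra! h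
  have h1 : IsPGroup 2 L := by
    refine IsPGroup.iff_card.2 ⟨_, Nat.eq_prime_pow_of_unique_prime_dvd Nat.card_pos.ne' fun hp hd => ?_⟩
    exact by_contra fun e => h _ hp e hd
  have := h1.isNilpotent
  exact calC_not_le hL inferInstance le_rfl

theorem calC_not_comm {L : Subgroup H} (hL : L ∈ calC H) : ¬ IsMulCommutative L := fun _ =>
  calC_not_le hL isSolvable_of_isMulCommutative le_rfl

theorem normal_or_aux (hS : IsStronglyQuasithin H) (h2 : pCore 2 H = ⊥) {L : Subgroup H} (hL : L ∈ calC H)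
    (hn : normalizer (L : Set H) ≠ ⊤) : (normalizer (L : Set H)).index = 2 ∧ IsSimpleGroup L ∧ OddCyc L := by
  obtain ⟨g, hg⟩ := not_forall.1 (mt (eq_top_iff' _).2 hn)
  have hc : ∀ a : H, Nat.card (L.map (MulAut.conj a).toMonoidHom) = Nat.card L :=
    fun a => card_map_of_injective (MulAut.conj a).injective
  have hN : ∀ a : H, L.map (MulAut.conj a).toMonoidHom = L → a ∈ normalizer (L : Set H) :=
    fun a => mem_normalizer_iff_map_conj_eq.2
  have hC : ∀ {A B : Subgroup H}, A ∈ calC H → B ∈ calC H → A ≠ B → A ≤ centralizer (B : Set H) :=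
    fun a b c => commutator_eq_bot_iff_le_centralizer.1 (calC_comm_bot hS h2 a b c)
  have h3 : OddCyc L := fun p hp e => by_contra fun h => by
    have : Fact p.Prime := ⟨hp⟩
    refine not_dvd_card_of_perfect hp e (hS p hp e) _ L (calC_conj hL g).2.1
      (hC (calC_conj hL g) hL fun e' => hg (hN g e')) h ?_
    rw [hc]
    exact by_contra fun e' => h ((PG.pRankLE_zero_iff.2 e').mono hp.pos zero_le_one)
  have h4 : fittingSubgroup L = ⊥ := fitting_eq_bot_of_oddCyc
    (Group.IsPerfect.commutator_eq_top (self := Subgroup.isPerfect_iff.2 hL.2.1))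
    (pCoreOf_eq_bot_iff.1 (by rw [pCoreOf_eq_inf_of_isSubnormal hL.2.2.1, h2, bot_inf_eq])) h3
  have h5 : IsSimpleGroup L := by
    have := (nontrivial_iff_ne_bot L).2 hL.1
    refine ⟨fun N hN => by_contra fun h => ?_⟩
    have := calC_solvable_of_lt (N := N.map L.subtype) hL ((map_subtype_le N).lt_of_ne fun e =>
      h (Or.inr (map_injective L.subtype_injective (by rw [e, ← MonoidHom.range_eq_map, range_subtype]))))
      (le_normalizer_map_subtype L N)
    have := isSolvable_of_map_of_injective (H := N) L.subtype_injective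
    exact inf_fitting_ne_bot (N := N) (fun e => h (Or.inl e)) (by rw [h4, inf_bot_eq])
  refine ⟨index_eq_two_iff.2 ⟨g, fun b => ?_⟩, h5, h3⟩
  by_cases hb : b ∈ normalizer (L : Set H)
  · exact Or.inr ⟨hb, fun h => hg ((mul_mem_cancel_left hb).1 h)⟩
  refine Or.inl ⟨by_contra fun h => ?_, hb⟩
  obtain ⟨p, hp, e, hd⟩ := exists_odd_prime_dvd hL
  have : Fact p.Prime := ⟨hp⟩
  have h6 := hC (calC_conj hL g) hL fun e' => hg (hN g e')
  refine not_dvd_card_of_perfect hp e (hS p hp e) _ (L ⊔ L.map (MulAut.conj g).toMonoidHom)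
    (calC_conj hL b⁻¹).2.1 (le_centralizer_sup (hC (calC_conj hL _) hL fun e' => hb (inv_mem_iff.1 (hN _ e')))
      (hC (calC_conj hL _) (calC_conj hL _) fun e' => h (hN _ ?_))) (fun h7 => ?_) (hc _ ▸ hd)
  · rw [show (MulAut.conj (b * g)).toMonoidHom = (MulAut.conj b).toMonoidHom.comp (MulAut.conj g).toMonoidHom by
      ext; simp [mul_assoc], ← map_map, ← e', map_map]
    convert map_id L
    ext; simp [mul_assoc]
  obtain ⟨x, hx⟩ := exists_prime_orderOf_dvd_card' p hd
  have hx1 : (x : H) ^ p = 1 := by rw [← hx, ← SubgroupClass.coe_pow, pow_orderOf_eq_one, OneMemClass.coe_one]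
  have hy : g * x * g⁻¹ ∈ L.map (MulAut.conj g).toMonoidHom := ⟨x, x.2, rfl⟩
  have hz : zpowers (x : H) ≤ L := (zpowers_le (G := H)).2 x.2
  have h8 := h7.card_le_of_le (sup_le_sup hz ((zpowers_le (G := H)).2 hy))
    ((IsElementaryAbelian.zpowers hx1).sup_zpowers (by rw [conj_pow, hx1]; simp) (centralizer_le hz (h6 hy)))
  rw [pow_one, ← hx, ← orderOf_coe, ← Nat.card_zpowers] at h8
  have h9 : g * x * g⁻¹ ∈ L := hz (eq_of_le_of_card_ge le_sup_left h8 ▸ mem_sup_right (mem_zpowers _))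
  have h10 : (⟨_, h9⟩ : L) ∈ fittingSubgroup L :=
    center_le_fitting (mem_center_iff.2 fun y => Subtype.ext (h6 hy y y.2))
  rw [h4, mem_bot, Subtype.ext_iff, OneMemClass.coe_one, conj_eq_one_iff, OneMemClass.coe_eq_one] at h10
  exact hp.ne_one (by rw [← hx, h10, orderOf_one])

/-- `L / O₂(L)` is the image of the subnormal subgroup `L` in `H / O₂(H)`. -/
theorem nonempty_quot_equiv {L : Subgroup H} (hL : L.IsSubnormal) :
    Nonempty (L ⧸ pCore 2 L ≃* L.map (QuotientGroup.mk' (pCore 2 H))) := by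
  refine ⟨(QuotientGroup.quotientMulEquivOfEq ?_).trans
    (QuotientGroup.quotientKerEquivOfSurjective _ (MonoidHom.subgroupMap_surjective _ L))⟩
  rw [ker_subgroupMap, QuotientGroup.ker_mk', ← pCoreOf_subgroupOf, pCoreOf_eq_inf_of_isSubnormal hL,
    inf_subgroupOf_right]

theorem calC_normal_or (hS : IsStronglyQuasithin H) {L : Subgroup H} (hL : L ∈ calC H) :
    L.Normal ∨ ((normalizer (L : Set H)).index = 2 ∧ IsSimpleGroup (L ⧸ pCore 2 L) ∧
      ¬ IsMulCommutative (L ⧸ pCore 2 L) ∧ OddCyc (L ⧸ pCore 2 L)) := by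
  refine or_iff_not_imp_left.2 fun hn => ?_
  have hπ := QuotientGroup.mk'_surjective (pCore 2 H)
  have h1 := comap_normalizer_calC hL hπ isSolvable_ker_two
  have hL' := calC_map' hL hπ isSolvable_ker_two
  obtain ⟨a, b, c⟩ := normal_or_aux (sqt_quot hS) pCore_quotient_pCore hL' fun e =>
    hn (normalizer_eq_top_iff.1 (by rw [← h1, e, comap_top]))
  obtain ⟨e⟩ := nonempty_quot_equiv hL.2.2.1
  refine ⟨by rw [← h1, index_comap_of_surjective _ hπ, a], e.isSimpleGroup, fun h => calC_not_comm hL' ?_,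
    fun p hp h => (c p hp h).of_mulEquiv e.symm⟩
  exact ⟨⟨fun x y => e.symm.injective (by rw [map_mul, map_mul, h.1.1])⟩⟩

theorem cover_aux (hS : IsStronglyQuasithin H) (h2 : pCore 2 H = ⊥) {L : Subgroup H} (hL : L ∈ calC H)
    {K : Type u} [Group K] [IsSimpleGroup K] (hna : ¬ IsMulCommutative K) (φ : L →* K)
    (hφ : Function.Surjective φ) : CoverSQT K := by
  by_cases h : fittingSubgroup H ≤ centralizer (L : Set H)
  · have h1 : φ.ker.map L.subtype < L := (map_subtype_le _).lt_of_ne fun e => by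
      obtain ⟨k, hk⟩ := exists_ne (1 : K)
      obtain ⟨x, rfl⟩ := hφ k
      obtain ⟨y, hy, e'⟩ := e.ge x.2
      exact hk (Subtype.ext e' ▸ hy)
    have h3 := le_normalizer_map_subtype L φ.ker
    have h4 : φ.ker.map L.subtype ≤ fittingSubgroup H := le_fitting_of_isSubnormal_of_isSolvable
      ((SubnormalIn.of_le_normalizer h1.le h3).isSubnormal hL.2.2.1) (calC_solvable_of_lt hL h1 h3)
      (h1.le.trans (le_centralizer_iff.1 h))
    refine ⟨L, inferInstance, inferInstance, φ, hφ, fun x hx => mem_center_iff.2 fun y =>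
      Subtype.ext (h (h4 ⟨x, hx, rfl⟩) y y.2), ?_, fun p hp e => (hS p hp e).subgroup L⟩
    refine Nat.not_even_iff_odd.1 fun e => ?_
    obtain ⟨x, hx⟩ := exists_prime_orderOf_dvd_card' 2 e.two_dvd
    have h5 : zpowers (x.1 : H) ≤ pCore 2 H := le_pCore_of_le_fitting
      (IsPGroup.of_card (n := 1) (by rw [Nat.card_zpowers, orderOf_coe, orderOf_coe, hx, pow_one]))
      ((zpowers_le (G := H)).2 (h4 ⟨x, x.2, rfl⟩))
    rw [h2, le_bot_iff, zpowers_eq_bot, OneMemClass.coe_eq_one, OneMemClass.coe_eq_one] at h5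
    rw [h5, orderOf_one] at hx
    omega
  · obtain ⟨r, hr, h3⟩ : ∃ r : ℕ, r.Prime ∧ ¬ pCore r H ≤ centralizer (L : Set H) := by
      simpa only [fitting_le_iff, not_forall, exists_prop] using h
    have : Fact r.Prime := ⟨hr⟩
    obtain ⟨ψ, hψ⟩ := exists_gl2 hS (r := r) fun e => h3 (by rw [e, h2]; exact bot_le)
    obtain ⟨φ', hφ'⟩ := calC_exists_hom_map hL hna hφ ψ fun e => h3 (le_centralizer_iff.1 (hψ L hL.2.1 e))
    have : Finite K := Finite.of_surjective φ hφ
    refine coverSQT_of_sqt (OddCyc.sqt fun p hp e => prankLE_one_of_surjective φ' hφ' hp e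
      ((sl2_oddCyc (r := r) p hp e).of_le ?_))
    exact perfect_le_ker_of_isSolvable (perfect_map hL.2.1 ψ) _ inferInstance

/-- The simple quotient of a 𝒞-component is covered by an SQT group. -/
theorem calC_cover (hS : IsStronglyQuasithin H) {L : Subgroup H} (hL : L ∈ calC H)
    {K : Type u} [Group K] [IsSimpleGroup K] (hna : ¬ IsMulCommutative K) (φ : L →* K)
    (hφ : Function.Surjective φ) : CoverSQT K := by
  obtain ⟨φ', hφ'⟩ := calC_exists_hom_map hL hna hφ _ (calC_not_le hL isSolvable_ker_two)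
  exact cover_aux (sqt_quot hS) pCore_quotient_pCore
    (calC_map' hL (QuotientGroup.mk'_surjective _) isSolvable_ker_two) hna φ' hφ'

end Cfsg.Agent.QT
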