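import Mathlib
import Cfsg.Agent.QT.CComp
import Cfsg.Agent.QT.CharTwo
import Cfsg.Agent.GT.Subnormal3
import Cfsg.Agent.S0205

/-! # QT: 𝒞-components of a subgroup, inside the ambient group -/

set_option autoImplicit false
set_option linter.unusedSectionVars false
open Cfsg Subgroup
open scoped commutatorElement

namespace Cfsg.Agent.QT

open Cfsg.Agent.GT Cfsg.Agent.Loc Cfsg.Agent.Loc.Mss

variable {G : Type*} [Group G]

/-- `L` is a 𝒞-component of `U`. -/
structure CC (L U : Subgroup G) : Prop where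
  ne : L ≠ ⊥
  perf : ⁅L, L⁆ = L
  sub : SubnormalIn L U
  min : ∀ K < L, K ≠ ⊥ → ⁅K, K⁆ = K → ¬ SubnormalIn K U

theorem CC.le {L U : Subgroup G} (h : CC L U) : L ≤ U := h.sub.le

theorem cc_map_iff {U : Subgroup G} {K : Subgroup U} : CC (K.map U.subtype) U ↔ K ∈ calC U := by
  have hi := U.subtype_injective
  have hp : ∀ X : Subgroup U, ⁅X.map U.subtype, X.map U.subtype⁆ = X.map U.subtype ↔ ⁅X, X⁆ = X :=
    fun X => by rw [← Subgroup.map_commutator, (map_injective hi).eq_iff]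
  constructor
  · intro h
    refine ⟨fun e => h.ne (by rw [e, Subgroup.map_bot]), (hp K).1 h.perf,
      subnormalIn_map_subtype_iff.1 h.sub, fun X hX hc => ?_⟩
    exact h.min _ ((map_lt_map_iff_of_injective hi).2 hX)
      (fun e => hc.1 ((map_eq_bot_iff_of_injective _ hi).1 e)) ((hp X).2 hc.2.1)
      (subnormalIn_map_subtype_iff.2 hc.2.2)
  · rintro ⟨h1, h2, h3, h4⟩
    refine ⟨fun e => h1 ((map_eq_bot_iff_of_injective _ hi).1 e), (hp K).2 h2,
      subnormalIn_map_subtype_iff.2 h3, fun X hX a1 a2 a3 => ?_⟩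
    have e := map_subgroupOf_eq_of_le a3.le
    rw [← e] at hX a1 a2
    exact h4 _ ((map_lt_map_iff_of_injective hi).1 hX)
      ⟨fun e => a1 (by rw [e, Subgroup.map_bot]), (hp _).1 a2, a3.2⟩

theorem cc_iff {L U : Subgroup G} (h : L ≤ U) : L.subgroupOf U ∈ calC U ↔ CC L U := by
  rw [← cc_map_iff, map_subgroupOf_eq_of_le h]

theorem CC.calC {L U : Subgroup G} (h : CC L U) : L.subgroupOf U ∈ calC U := (cc_iff h.le).2 h

theorem cc_top_iff {L : Subgroup G} : CC L ⊤ ↔ L ∈ calC G :=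
  ⟨fun h => ⟨h.ne, h.perf, subnormalIn_top_iff.1 h.sub,
      fun K hK hc => h.min K hK hc.1 hc.2.1 (subnormalIn_top_iff.2 hc.2.2)⟩,
    fun h => ⟨h.1, h.2.1, subnormalIn_top_iff.2 h.2.2.1,
      fun K hK a1 a2 a3 => h.2.2.2 K hK ⟨a1, a2, subnormalIn_top_iff.1 a3⟩⟩⟩

theorem CC.mono {L U J : Subgroup G} (h : CC L U) (h1 : L ≤ J) (h2 : J ≤ U) : CC L J :=
  ⟨h.ne, h.perf, h.sub.mono h1 h2, fun K hK a1 a2 a3 =>
    h.min K hK a1 a2 ((a3.mono hK.le h1).trans h.sub)⟩

theorem CC.cj {L U : Subgroup G} (h : CC L U) {g : G} (hg : g ∈ 𝐍[U]) : CC cj(g, L) U := by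
  refine ⟨fun e => h.ne (cj_eq_bot.1 e), by rw [← cj_comm, h.perf], h.sub.map_conj hg,
    fun K hK a1 a2 a3 => h.min cj(g⁻¹, K) ?_ (fun e => a1 (cj_eq_bot.1 e))
      (by rw [← cj_comm, a2]) (a3.map_conj (inv_mem hg))⟩
  rw [← cj_inv_cj L g]
  exact cj_lt_cj.2 hK

theorem CC.not_solvable {L U : Subgroup G} (h : CC L U) : ¬ Group.IsSolvable L := fun hs =>
  h.ne (perfect_eq_bot_of_isSolvable h.perf hs)

variable [Finite G]

theorem CC.solvable_of_lt {L U N : Subgroup G} (h : CC L U) (hN : N < L) (hn : L ≤ 𝐍[N]) :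
    Group.IsSolvable N := by
  have hNU := hN.le.trans h.le
  have := calC_solvable_of_lt (N := N.subgroupOf U) h.calC
    (lt_of_le_of_ne (comap_mono hN.le) fun e => hN.ne (by
      have := congrArg (Subgroup.map U.subtype) e
      rwa [map_subgroupOf_eq_of_le hNU, map_subgroupOf_eq_of_le h.le] at this))
    (comap_norm_le _ hn)
  exact Group.isSolvable_of_isSolvable_injective
    (f := (subgroupOfEquivOfLe hNU).symm.toMonoidHom) (subgroupOfEquivOfLe hNU).symm.injective

theorem CC.le_norm {L K U : Subgroup G} (h : CC L U) (h' : CC K U) : K ≤ 𝐍[L] := by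
  have := calC_le_normalizer h.calC h'.calC
  rw [norm_subgroupOf h.le] at this
  exact fun x hx => this (x := ⟨x, h'.le hx⟩) hx

theorem CC.ncl_le_norm {L U T : Subgroup G} (h : CC L U) (hT : T ≤ U) : ncl T L ≤ 𝐍[L] :=
  ncl_le_iff.2 fun _ hg => h.le_norm (h.cj (le_normalizer (hT hg)))

/-- The largest solvable normal subgroup of `U` contains all solvable subnormal subgroups. -/
theorem exists_rad (U : Subgroup G) : ∃ R ≤ U, U ≤ 𝐍[R] ∧ Group.IsSolvable R ∧
    ∀ A, SubnormalIn A U → Group.IsSolvable A → A ≤ R := by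
  obtain ⟨R, -, ⟨h1, h2, h3⟩, h4⟩ := Finite.exists_le_maximal
    (p := fun R : Subgroup G => R ≤ U ∧ U ≤ 𝐍[R] ∧ Group.IsSolvable R) (a := ⊥)
    ⟨bot_le, norm_normal _ _, inferInstance⟩
  refine ⟨R, h1, h2, h3, fun A hA hs => ?_⟩
  obtain ⟨N, a1, a2, a3, a4⟩ := hA.exists_normal_of_closed (fun X => Group.IsSolvable X)
    (fun g _ X _ hX => Group.isSolvable_of_surjective (f := (MulAut.conj g).toMonoidHom.subgroupMap X)
      ((MulAut.conj g).toMonoidHom.subgroupMap_surjective X))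
    (fun X _ Y _ hX hY h _ => isSolvable_sup_of_le_normalizer h) hs
  exact (a1.trans le_sup_left).trans (h4 ⟨sup_le a2 h1, norm_sup a3 h2,
    isSolvable_sup_of_le_normalizer (a2.trans h2)⟩ le_sup_right)

theorem sSup_inf_syl {p : ℕ} [Fact p.Prime] (S : Sylow p G) {C : Subgroup G} {s : Set (Subgroup G)}
    (h1 : ∀ A ∈ s, A.IsSubnormal) (h2 : ∀ A ∈ s, A ⊓ S ≤ C) : sSup s ⊓ S ≤ C := by
  induction s, Set.toFinite s using Set.Finite.induction_on with
  | empty => simp
  | insert _ _ ih =>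
    rw [sSup_insert, sup_inf_sylow_of_isSubnormal S (h1 _ (Set.mem_insert _ _))
      (isSubnormal_sSup fun A hA => h1 A (Set.mem_insert_of_mem _ hA))]
    exact sup_le (h2 _ (Set.mem_insert _ _)) (ih (fun A hA => h1 A (Set.mem_insert_of_mem _ hA))
      fun A hA => h2 A (Set.mem_insert_of_mem _ hA))

/-- A perfect group whose Sylow 2-subgroup is central modulo a solvable normal subgroup is
trivial. -/
theorem solvable_of_syl_comm {L R P : Subgroup G} (hR : Group.IsSolvable R) (hn : L ≤ 𝐍[R])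
    (hP : Syl 2 P L) (h : ⁅L, P⁆ ≤ R) : Group.IsSolvable L := by
  have h1 : (((R ⊔ P) ⊓ L).subgroupOf L).Normal := by
    rw [normal_subgroupOf_iff_le_normalizer inf_le_right]
    refine norm_inf (norm_of_comm_le' (A := R) le_sup_left ?_) le_normalizer
    exact sup_comm_le le_normalizer (hP.le.trans hn) (comm_le_left hn)
      (by rwa [commutator_comm])
  have := hP.pg.isNilpotent
  have h2 : Group.IsSolvable (R ⊔ P : Subgroup G) := by
    rw [sup_comm]
    exact isSolvable_sup_of_le_normalizer (hP.le.trans hn)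
  have h3 : Group.IsSolvable (((R ⊔ P) ⊓ L).subgroupOf L) :=
    Group.isSolvable_of_isSolvable_injective
      (f := (inclusion (inf_le_left : (R ⊔ P) ⊓ L ≤ R ⊔ P)).comp
        (subgroupOfEquivOfLe (inf_le_right : (R ⊔ P) ⊓ L ≤ L)).toMonoidHom)
      ((inclusion_injective inf_le_left).comp (subgroupOfEquivOfLe inf_le_right).injective)
  have h4 : Group.IsSolvable (L ⧸ ((R ⊔ P) ⊓ L).subgroupOf L) := by
    refine S0205.result (Nat.not_even_iff_odd.1 fun h => hP.nd (h.two_dvd.trans ?_))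
    exact relIndex_dvd_of_le_left L (le_inf le_sup_right hP.le)
  exact Group.isSolvable_of_ker_le_range (((R ⊔ P) ⊓ L).subgroupOf L).subtype
    (QuotientGroup.mk' (((R ⊔ P) ⊓ L).subgroupOf L))
    (by rw [QuotientGroup.ker_mk', range_subtype])

/-- A 𝒞-component of `⟨L, T⟩` lies in a 𝒞-component of every overgroup `H` whose perfect core is
generated by 𝒞-components. -/
theorem CC.exists_ge {H : Type*} [Group H] [Finite H] (T : Sylow 2 H) {L : Subgroup H}
    (hL : CC L (L ⊔ T)) (hH : sSup (Cfsg.calC H) = perfectCore H) : ∃ K ∈ Cfsg.calC H, L ≤ K := by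
  by_contra hcon
  push Not at hcon
  obtain ⟨R, hRU, hUR, hR, hmax⟩ := exists_rad (L ⊔ T)
  have hLP : L ≤ sSup (Cfsg.calC H) := hH ▸ le_sSup hL.perf
  have hLR : L ≤ 𝐍[R] := le_sup_left.trans hUR
  have hTR : (T : Subgroup H) ≤ 𝐍[R] := le_sup_right.trans hUR
  have key : sSup (Cfsg.calC H) ⊓ T ≤ cmod L R := by
    refine sSup_inf_syl T (fun K hK => hK.2.2.1) fun K hK => le_cmod.2 ⟨inf_le_right.trans hTR, ?_⟩
    have h1 : L ≤ 𝐍[K] := hLP.trans (sSup_le fun K' hK' => calC_le_normalizer hK hK')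
    have h2 : L ⊓ K ≤ R := by
      have a1 : L ≤ 𝐍[L ⊓ K] := norm_inf le_normalizer h1
      exact hmax _ (SubnormalIn.step inf_le_left a1 hL.sub) (hL.solvable_of_lt
        (lt_of_le_of_ne inf_le_left fun e => hcon K hK (inf_eq_left.1 e)) a1)
    have h3 : ⁅L, K ⊓ T⁆ ≤ ncl T L ⊓ K := le_inf
      ((commutator_mono (le_ncl _ _) inf_le_right).trans (comm_le_left (le_norm_ncl _ _)))
      ((commutator_mono le_rfl inf_le_left).trans (comm_le_right h1))
    have h4 : ⁅⁅L, K ⊓ T⁆, L⁆ ≤ R := (commutator_mono h3 le_rfl).trans (le_trans (le_inf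
      ((commutator_mono inf_le_left le_rfl).trans (comm_le_right (hL.ncl_le_norm le_sup_right)))
      ((commutator_mono inf_le_right le_rfl).trans (comm_le_left h1))) h2)
    have := three_subgroups hLR hLR (inf_le_right.trans hTR) h4 (by rwa [commutator_comm (K ⊓ _)])
    rwa [hL.perf] at this
  have hS : Syl 2 ((T : Subgroup H) ⊓ L) L :=
    (Syl.of_sylow_le T le_sup_right).inf_subnormal hL.sub
  exact hL.not_solvable (solvable_of_syl_comm hR hLR hS (le_cmod.1 (le_trans
    (le_inf (inf_le_right.trans hLP) inf_le_left) key)).2)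

theorem CC.map {G' : Type*} [Group G'] {L U : Subgroup G} (h : CC L U) {f : G →* G'}
    (hi : Function.Injective f) : CC (L.map f) (U.map f) := by
  refine ⟨fun e => h.ne ((map_eq_bot_iff_of_injective _ hi).1 e),
    by rw [← Subgroup.map_commutator, h.perf], h.sub.map f, fun K hK a1 a2 a3 => ?_⟩
  have e : (K.comap f).map f = K := map_comap_eq_self (hK.le.trans (map_le_range _ _))
  rw [← e] at hK a1 a2 a3
  rw [← Subgroup.map_commutator, (map_injective hi).eq_iff] at a2
  exact h.min _ ((map_lt_map_iff_of_injective hi).1 hK) (fun e => a1 (by rw [e, Subgroup.map_bot]))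
    a2 ((subnormalIn_map_iff_of_injective hi).1 a3)

theorem CC.subgroupOf {L U H : Subgroup G} (h : CC L U) (hU : U ≤ H) :
    CC (L.subgroupOf H) (U.subgroupOf H) := by
  have hi := H.subtype_injective
  have e := map_subgroupOf_eq_of_le (h.le.trans hU)
  refine ⟨fun e' => h.ne (by rw [← e, e', Subgroup.map_bot]), map_injective hi
    (by rw [Subgroup.map_commutator, e, h.perf]), h.sub.subgroupOf' H, fun K hK a1 a2 a3 => ?_⟩
  have a4 := a3.map H.subtype
  rw [map_subgroupOf_eq_of_le hU] at a4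
  exact h.min (K.map H.subtype) (e ▸ (map_lt_map_iff_of_injective hi).2 hK)
    (fun e => a1 ((map_eq_bot_iff_of_injective _ hi).1 e))
    (by rw [← Subgroup.map_commutator, a2]) a4

/-- A 𝒞-component of a member of `ℋ(T)` lies in `ℒ(G, T)`. -/
theorem CC.mem_calL (T : Sylow 2 G) {K H : Subgroup G} (h : CC K H)
    (hH : H ∈ calHOver (T : Subgroup G)) : K ∈ calL (T : Subgroup G) := by
  have h1 : K ⊔ T ≤ H := sup_le h.le hH.2
  refine ⟨(h.mono le_sup_left h1).calC, ?_, mem_calH_of_norm (pg_core H) (mem_calH_iff.1 hH.1)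
    ((Syl.of_sylow_le T hH.2).core_le.trans le_sup_right) (h1.trans (le_norm_core H))⟩
  obtain ⟨P, hP, -⟩ := (Syl.of_sylow_le T (le_sup_right : _ ≤ K ⊔ T)).exists_sylow
  exact ⟨P, hP⟩

end Cfsg.Agent.QT
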