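import Mathlib
import Cfsg.Agent.QT.Rank
import Cfsg.Agent.QT.CharTwo
import Cfsg.Agent.FT.BG4_5
import Cfsg.Agent.FT.BG4_8

/-! # QT: the solvable uniqueness groups `Ξ(G, T)`, abstract properties -/

set_option autoImplicit false
set_option linter.unusedSectionVars false
open Cfsg Subgroup
open scoped commutatorElement

namespace Cfsg.Agent.QT

open Cfsg.Agent.GT Cfsg.Agent.Loc Cfsg.Agent.Loc.Mss

variable {H : Type*} [Group H] [Finite H] {p : ℕ}

/-- `T` acts irreducibly on the Frattini quotient `X / Φ` of order `p ^ 2`. -/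
structure XiD (p : ℕ) (X T Φ : Subgroup H) : Prop where
  hp : p.Prime
  h2 : p ≠ 2
  res : pResidualOf 2 X = X
  norm : T ≤ 𝐍[X]
  le : Φ ≤ X
  normΦ : T ≤ 𝐍[Φ]
  comm : ⁅X, X⁆ ≤ Φ
  pow : ∀ x ∈ X, x ^ p ∈ Φ
  idx : Φ.relIndex X = p ^ 2
  card : ∃ k, Nat.card Φ ∣ 2 ^ k * p
  inv : ∀ Y ≤ X, X ≤ 𝐍[Y] → T ≤ 𝐍[Y] → Y ≤ Φ ∨ Y = X

theorem relIndex_map_of_ker {H' : Type*} [Group H'] (f : H →* H') {A B : Subgroup H} (h : A ≤ B)
    (hk : B ⊓ f.ker ≤ A) : (A.map f).relIndex (B.map f) = A.relIndex B := by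
  rw [← relIndex_comap, comap_map_eq, ← inf_relIndex_right]
  congr 1
  refine le_antisymm (fun x hx => ?_) (le_inf le_sup_left h)
  obtain ⟨a, ha, k, hk', rfl⟩ := mem_sup_of_normal_right.1 hx.1
  exact mul_mem ha (hk ⟨(mul_mem_cancel_left (h ha)).1 hx.2, hk'⟩)

/-- An element of order `p` centralising a subgroup of exponent `p` and order at least `p ^ 2`
lies in it. -/
theorem mem_of_rank_two (hp : p.Prime) (hH : PRankLE p 2 H) {Y : Subgroup H}
    (hY : ∀ y ∈ Y, y ^ p = 1) (hc : p ^ 2 ≤ Nat.card Y) {x : H} (hx : x ^ p = 1)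
    (hxc : x ∈ 𝐂[Y]) : x ∈ Y := by
  have := Fact.mk hp
  have h1 : IsPGroup p Y := pg_iff.2 fun y hy => ⟨1, by rw [pow_one, hY y hy]⟩
  obtain ⟨E, hE⟩ := Sylow.exists_subgroup_card_pow_prime_of_le_card hp h1 hc
  have hEY : E.map Y.subtype ≤ Y := map_subtype_le E
  have hc' : Nat.card (E.map Y.subtype) = p ^ 2 := by
    rw [card_map_of_injective Y.subtype_injective, hE]
  have h2 : IsElementaryAbelian p (E.map Y.subtype) :=
    ⟨FT.b4_comm_of_card_le_sq (h1.to_le hEY) hc'.le, fun y hy => hY y (hEY hy)⟩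
  have h3 := h2.sup_zpowers hx (cent_anti hEY hxc)
  have h4 := eq_of_le_of_card_ge (le_sup_left : E.map Y.subtype ≤ _ ⊔ zpowers x)
    (hc' ▸ hH.card_le h3)
  exact hEY (h4 ▸ mem_sup_right (mem_zpowers x))

namespace XiD

variable {X T Φ : Subgroup H}

theorem normX (h : XiD p X T Φ) {Y : Subgroup H} (h1 : Φ ≤ Y) (h2 : Y ≤ X) : X ≤ 𝐍[Y] :=
  norm_of_comm_le h2 (h.comm.trans h1)

theorem one_lt (h : XiD p X T Φ) : p < p ^ 2 := by
  have := h.hp.one_lt
  nlinarith

theorem not_le (h : XiD p X T Φ) : ¬ X ≤ Φ := fun e => by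
  have h1 := h.idx
  rw [relIndex_eq_one.2 e] at h1
  have := h.one_lt
  have := h.hp.one_lt
  omega

theorem card_eq (h : XiD p X T Φ) : Nat.card X = Nat.card Φ * p ^ 2 := by
  rw [← h.idx, ← relIndex_bot_left, ← relIndex_bot_left, relIndex_mul_relIndex _ _ _ bot_le h.le]

theorem coprime (h : XiD p X T Φ) {r : ℕ} (hr : r.Prime) (h1 : r ≠ 2) (h2 : r ≠ p) :
    (Nat.card X).Coprime r := by
  obtain ⟨k, hk⟩ := h.card
  have a1 := (Nat.coprime_primes Nat.prime_two hr).2 h1.symm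
  have a2 := (Nat.coprime_primes h.hp hr).2 h2.symm
  rw [h.card_eq]
  exact Nat.Coprime.mul_left (Nat.Coprime.coprime_dvd_left hk
    (Nat.Coprime.mul_left (a1.pow_left k) a2)) (a2.pow_left 2)

theorem map (h : XiD p X T Φ) {H' : Type*} [Group H'] (f : H →* H') (hk : X ⊓ f.ker ≤ Φ) :
    XiD p (X.map f) (T.map f) (Φ.map f) where
  hp := h.hp
  h2 := h.h2
  res := by rw [← map_pResidualOf, h.res]
  norm := map_norm_le f h.norm
  le := map_mono h.le
  normΦ := map_norm_le f h.normΦ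
  comm := by rw [← Subgroup.map_commutator]; exact map_mono h.comm
  pow := by
    rintro _ ⟨x, hx, rfl⟩
    exact ⟨_, h.pow x hx, map_pow _ _ _⟩
  idx := by rw [relIndex_map_of_ker f h.le hk, h.idx]
  card := h.card.imp fun _ hk => (card_map_dvd _ _).trans hk
  inv := fun Y h1 h2 h3 => by
    have e : (Y.comap f ⊓ X).map f = Y := by
      refine le_antisymm ((map_mono inf_le_left).trans (map_comap_le _ _)) fun y hy => ?_
      obtain ⟨x, hx, rfl⟩ := h1 hy
      exact ⟨x, ⟨hy, hx⟩, rfl⟩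
    rcases h.inv (Y.comap f ⊓ X) inf_le_right
      (norm_inf ((le_comap_map _ _).trans (comap_norm_le f h2)) le_normalizer)
      (norm_inf ((le_comap_map _ _).trans (comap_norm_le f h3)) h.norm) with a | a
    · exact Or.inl (e ▸ map_mono a)
    · exact Or.inr (by rw [← e, a])

theorem subgroupOf (h : XiD p X T Φ) {J : Subgroup H} (hX : X ≤ J) (hT : T ≤ J) :
    XiD p (X.subgroupOf J) (T.subgroupOf J) (Φ.subgroupOf J) where
  hp := h.hp
  h2 := h.h2
  res := map_injective J.subtype_injective (by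
    rw [map_pResidualOf, map_subgroupOf_eq_of_le hX, h.res])
  norm := comap_norm_le _ h.norm
  le := comap_mono h.le
  normΦ := comap_norm_le _ h.normΦ
  comm := by
    rw [← map_subtype_le_iff, Subgroup.map_commutator, map_subgroupOf_eq_of_le hX,
      map_subgroupOf_eq_of_le (h.le.trans hX)]
    exact h.comm
  pow := fun x hx => h.pow x hx
  idx := by rw [relIndex_subgroupOf hX, h.idx]
  card := by
    rw [Nat.card_congr (subgroupOfEquivOfLe (h.le.trans hX)).toEquiv]
    exact h.card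
  inv := fun Y h1 h2 h3 => by
    have a2 := map_norm_le J.subtype h2
    have a3 := map_norm_le J.subtype h3
    rw [map_subgroupOf_eq_of_le hX] at a2
    rw [map_subgroupOf_eq_of_le hT] at a3
    rcases h.inv _ (map_le_iff_le_comap.2 h1) a2 a3 with a | a
    · exact Or.inl (map_le_iff_le_comap.1 a)
    · exact Or.inr (map_injective J.subtype_injective (by rw [a, map_subgroupOf_eq_of_le hX]))

/-- An image of `X` with cyclic Sylow `p`-subgroups is trivial. -/
theorem map_eq_one (h : XiD p X T Φ) {J : Subgroup H} (hX : X ≤ J) (hT : T ≤ J) {Y : Type*}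
    [Group Y] (f : J →* Y) {Z : Subgroup Y} (hZ : PRankLE p 1 Z)
    (hf : ∀ x : J, (x : H) ∈ X → f x ∈ Z) (x : J) (hx : (x : H) ∈ X) : f x = 1 := by
  have hn : J ≤ 𝐍[f.ker.map J.subtype] := by
    have := map_norm_le J.subtype (norm_normal ⊤ f.ker)
    rwa [map_subtype_top] at this
  rcases h.inv (f.ker.map J.subtype ⊓ X) inf_le_right (norm_inf (hX.trans hn) le_normalizer)
    (norm_inf (hT.trans hn) h.norm) with a | a
  · exfalso
    have : (Φ.subgroupOf X).Normal :=
      (normal_subgroupOf_iff_le_normalizer h.le).2 (h.normX le_rfl h.le)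
    set g := (f.comp (inclusion hX)).rangeRestrict
    have hg : Function.Surjective g := (f.comp (inclusion hX)).rangeRestrict_surjective
    have : Finite (f.comp (inclusion hX)).range := Finite.of_surjective g hg
    have hk : g.ker ≤ (QuotientGroup.mk' (Φ.subgroupOf X)).ker := fun y hy => by
      rw [QuotientGroup.ker_mk']
      exact a ⟨⟨inclusion hX y, congrArg Subtype.val hy, rfl⟩, y.2⟩
    have h1 : PRankLE p 1 (f.comp (inclusion hX)).range := hZ.of_le (by
      rintro _ ⟨y, rfl⟩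
      exact hf _ y.2)
    have h2 := prankLE_one_of_surjective (g.liftOfSurjective hg ⟨_, hk⟩) (fun y => by
      obtain ⟨y, rfl⟩ := QuotientGroup.mk'_surjective _ y
      exact ⟨g y, by simp⟩) h.hp h.h2 h1 ⊤ ⟨⟨fun a b => Subtype.ext (by
        obtain ⟨a, -⟩ := a
        obtain ⟨b, -⟩ := b
        obtain ⟨a, rfl⟩ := QuotientGroup.mk_surjective a
        obtain ⟨b, rfl⟩ := QuotientGroup.mk_surjective b
        change ((a * b : X) : X ⧸ Φ.subgroupOf X) = (b * a : X)
        rw [QuotientGroup.eq]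
        have := h.comm (commutator_mem_commutator (inv_mem b.2) (inv_mem a.2))
        simpa [commutatorElement_def, mem_subgroupOf, mul_assoc] using this)⟩⟩ (fun a _ => by
        obtain ⟨a, rfl⟩ := QuotientGroup.mk_surjective a
        rw [← QuotientGroup.mk_pow, QuotientGroup.eq_one_iff]
        exact h.pow a a.2)
    rw [card_top, pow_one] at h2
    exact absurd (h.idx ▸ h2) (_root_.not_le.2 h.one_lt)
  · obtain ⟨y, hy, e⟩ := (a.ge hx).1
    rwa [← Subtype.ext e]

theorem le_of_le_sup (h : XiD p X T Φ) {N Y : Subgroup H} (hX : X ≤ 𝐍[N]) (hT : T ≤ 𝐍[N])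
    (hY : Y ≤ 𝐍[N]) (h1 : PRankLE p 1 Y) (h2 : X ≤ N ⊔ Y) : X ≤ N := fun x hx => by
  have : (N.subgroupOf 𝐍[N]).Normal := normal_in_normalizer
  set f := QuotientGroup.mk' (N.subgroupOf 𝐍[N])
  have := h.map_eq_one hX hT f (Z := (f.comp (inclusion hY)).range)
    (prankLE_one_of_surjective _ (f.comp (inclusion hY)).rangeRestrict_surjective h.hp h.h2 h1)
    (fun z hz => by
      obtain ⟨n, hn, y, hy, e⟩ := (mem_sup_norm hY).1 (h2 hz)
      refine ⟨⟨y, hy⟩, ?_⟩
      change ((⟨y, hY hy⟩ : 𝐍[N]) : _ ⧸ N.subgroupOf 𝐍[N]) = z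
      rw [QuotientGroup.eq, mem_subgroupOf]
      change y⁻¹ * z ∈ N
      rw [← e, ← mul_assoc]
      exact conj_mem_of_norm' (hY hy) hn) ⟨x, hX hx⟩ hx
  exact (QuotientGroup.eq_one_iff (N := N.subgroupOf 𝐍[N]) ⟨x, hX hx⟩).1 this

theorem not_rank_one (h : XiD p X T Φ) : ¬ PRankLE p 1 X := fun h1 =>
  h.not_le ((h.le_of_le_sup (N := ⊥) (norm_normal _ _) (norm_normal _ _) (norm_normal _ _) h1
    le_sup_right).trans bot_le)

/-- A subgroup of index at most two of `T` acts non-trivially on `X / Φ`. -/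
theorem comm_eq (h : XiD p X T Φ) {B : Subgroup H} (hB : B ≤ T)
    (h2 : ∀ s ∈ T, ∀ t ∈ T, s ∉ B → t ∉ B → s * t ∈ B) : ⁅X, B⁆ = X := by
  have hTB : T ≤ 𝐍[B] := norm_of_forall_cj_le fun t ht => cj_le_iff.2 fun b hb => by
    by_cases e : t ∈ B
    · exact mul_mem (mul_mem e hb) (inv_mem e)
    · exact h2 _ (mul_mem ht (hB hb)) _ (inv_mem ht) (fun a => e ((mul_mem_cancel_right hb).1 a))
        (fun a => e (inv_mem_iff.1 a))
  refine (h.inv _ (comm_le_left (hB.trans h.norm)) (normalizer_commutator_ge_left _ _)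
    (norm_comm h.norm hTB)).resolve_left fun hc => ?_
  have hb : ∀ y ∈ X, ∀ b ∈ B, y⁻¹ * (b * y * b⁻¹) ∈ Φ := fun y hy b hb => by
    have := hc (commutator_mem_commutator (inv_mem hy) hb)
    simpa [commutatorElement_def, mul_assoc] using this
  have key : ∀ y ∈ X, (∀ t ∈ T, t * y * t⁻¹ ∈ Φ ⊔ zpowers y) → y ∈ Φ := fun y hy ht => by
    by_contra hn
    have a1 : Φ ⊔ zpowers y ≤ X := sup_le h.le (zpowers_le.2 hy)
    rcases h.inv _ a1 (h.normX le_sup_left a1) (norm_of_forall_cj_le fun t ht' => by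
      rw [cj_sup, cj_of_norm (h.normΦ ht'), MonoidHom.map_zpowers]
      exact sup_le le_sup_left (zpowers_le.2 (ht t ht'))) with a | a
    · exact hn (a (mem_sup_right (mem_zpowers y)))
    · have := PG.relIndex_sup_zpowers h.hp (h.normX le_rfl h.le hy) hn (h.pow y hy)
      rw [a, h.idx] at this
      exact h.one_lt.ne' this
  have hm : ∀ {y z : H}, y⁻¹ * z ∈ Φ → z ∈ Φ ⊔ zpowers y := fun {y z} a => by
    have := mul_mem (mem_sup_right (S := Φ) (mem_zpowers y)) (mem_sup_left a)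
    rwa [mul_inv_cancel_left] at this
  obtain ⟨x, hx, hxΦ⟩ := SetLike.not_le_iff_exists.1 h.not_le
  refine hxΦ (key x hx fun t ht => hm ?_)
  by_cases e : t ∈ B
  · exact hb x hx t e
  have hy : x⁻¹ * (t * x * t⁻¹) ∈ X := mul_mem (inv_mem hx) (conj_mem_of_norm (h.norm ht) hx)
  refine key _ hy fun s hs => ?_
  by_cases e' : s ∈ B
  · exact hm (hb _ hy s e')
  have a1 := h2 s hs t ht e' e
  have a2 := h2 s hs t⁻¹ (inv_mem ht) e' (fun a => e (inv_mem_iff.1 a))
  have a3 := hb x hx _ a1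
  have a4 := hb _ (conj_mem_of_norm (h.norm ht) hx) _ a2
  have a5 := mul_mem (mul_mem (mem_sup_left (T := zpowers (x⁻¹ * (t * x * t⁻¹))) (inv_mem a4))
    (mem_sup_right (inv_mem (mem_zpowers _)))) (mem_sup_left a3)
  convert a5 using 1
  group

/-- If `X` lies in a normal `p`-subgroup then `X` is normal. -/
theorem normal_of_le (h : XiD p X T Φ) (hH : PRankLE p 2 H) {R : Subgroup H} [R.Normal]
    (hR : IsPGroup p R) (hX : X ≤ R) : X.Normal := by
  have := Fact.mk h.hp
  have hp1 := h.hp.one_lt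
  have odd : ∀ {Y : Subgroup H}, IsPGroup p Y → Odd (Nat.card Y) := fun hY => by
    obtain ⟨n, hn⟩ := IsPGroup.iff_card.1 hY
    exact hn ▸ (h.hp.odd_of_ne_two h.h2).pow
  have hXp := hR.to_le hX
  have hΦ : Nat.card Φ ∣ p := by
    obtain ⟨k, hk⟩ := h.card
    exact (Nat.Coprime.pow_right k (Nat.coprime_two_right.2
      (odd (hXp.to_le h.le)))).dvd_of_dvd_mul_left hk
  have hΦc : X ≤ 𝐂[Φ] := by
    rcases (Nat.dvd_prime h.hp).1 hΦ with a | a
    · rw [card_eq_one.1 a, cent_bot]; exact le_top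
    · exact PG.le_centralizer_of_card_prime a hXp (h.normX le_rfl h.le)
  have hexp : ∀ x ∈ X, x ^ p = 1 := by
    rcases h.inv (omegaOne p X) (PG.omegaOne_le _) (norm_omega le_normalizer)
      (norm_omega h.norm) with a | a
    · refine (h.not_rank_one fun A _ hA => ?_).elim
      rw [← card_map_of_injective X.subtype_injective, pow_one]
      refine (card_le_of_le (le_trans ?_ a)).trans (Nat.le_of_dvd h.hp.pos hΦ)
      rintro _ ⟨y, hy, rfl⟩
      exact PG.mem_omegaOne y.2 (congrArg Subtype.val (hA y hy))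
    · exact fun x hx => FT.exponent_odd_nil23 hXp (odd hXp) (Or.inl (le_bot_iff.1
        ((commutator_mono h.comm le_rfl).trans (comm_eq_bot_iff'.2 hΦc).le))) x (a.ge hx)
  have hX2 : p ^ 2 ≤ Nat.card X := h.card_eq ▸ Nat.le_mul_of_pos_left _ Nat.card_pos
  have hnc : ¬ IsCyclic R := fun hc =>
    h.not_rank_one (PRankLE.of_le PG.pRankLE_one_of_isCyclic hX)
  obtain ⟨hW1, hW2⟩ := FT.Ohm1_odd_ucn2 hR (odd hR) hnc
  have hn2 : (FT.ucn2 R).Normal := by unfold FT.ucn2; infer_instance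
  set W := omegaOne p (FT.ucn2 R) with hW
  have hWn : W.Normal := normal_of_top (norm_omega (norm_normal _ _))
  have hWu : W ≤ FT.ucn2 R := PG.omegaOne_le _
  have hWR : W ≤ R := hWu.trans (FT.ucn2_le R)
  have hZ : ⁅W, R⁆ ≤ W ⊓ 𝐂[R] := le_inf (commutator_le_left _ _)
    ((commutator_mono hWu le_rfl).trans ((FT.b4_commutator_ucn2 R).trans inf_le_right))
  set Z := W ⊓ 𝐂[R] with hZd
  have hZn : Z.Normal := normal_of_top (norm_inf (norm_normal _ _) (norm_cent (norm_normal _ _)))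
  have hXZ : X ≤ 𝐂[Z] := hX.trans (cent_comm inf_le_right)
  have hZe : ∀ z ∈ Z, z ^ p = 1 := fun z hz => hW2 z hz.1
  have hW1' : W ≠ ⊥ := fun e => hW1 (by rw [e]; infer_instance)
  have hZ1 : Z ≠ ⊥ := PG.inf_centralizer_ne_bot_of_isPGroup (hR.to_le hWR) hR (norm_normal _ _) hW1'
  by_cases c1 : p ^ 2 ≤ Nat.card Z
  · have a1 : X ≤ Z := fun x hx => mem_of_rank_two h.hp hH hZe c1 (hexp x hx) (hXZ hx)
    rwa [eq_of_le_of_card_ge a1 ((hH.card_le ⟨le_centralizer_iff_isMulCommutative.1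
      ((inf_le_left.trans hWR).trans (cent_comm inf_le_right)), hZe⟩).trans hX2)]
  have hZp : Nat.card Z = p := by
    obtain ⟨n, hn⟩ := IsPGroup.iff_card.1 ((hR.to_le hWR).to_le (inf_le_left : Z ≤ W))
    have a1 : n < 2 := (Nat.pow_lt_pow_iff_right hp1).1 (hn ▸ _root_.not_le.1 c1)
    have a2 : n ≠ 0 := fun e => hZ1 (card_eq_one.1 (by rw [hn, e, pow_zero]))
    rw [hn, show n = 1 by omega, pow_one]
  obtain ⟨n, hn⟩ := IsPGroup.iff_card.1 (hR.to_le hWR)
  have hn3 : n ≤ 3 := (Nat.pow_le_pow_iff_right hp1).1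
    (hn ▸ FT.rank2_exponent_p_p3group (hR.to_le hWR) (hH.subgroup _) hW2)
  have hn2 : 2 ≤ n := by
    by_contra a
    refine hW1 (isCyclic_of_card_dvd_prime (p := p) ?_)
    rw [hn]
    exact (pow_dvd_pow p (by omega : n ≤ 1)).trans (pow_one p).dvd
  rcases (by omega : n = 2 ∨ n = 3) with rfl | rfl
  · have a1 : Z.relIndex W = p := by
      have := relIndex_mul_relIndex ⊥ Z W bot_le inf_le_left
      rw [relIndex_bot_left, relIndex_bot_left, hZp, hn, sq] at this
      exact Nat.eq_of_mul_eq_mul_left h.hp.pos this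
    obtain ⟨w, hw, hwZ⟩ := SetLike.not_le_iff_exists.1 fun a : W ≤ Z => by
      rw [relIndex_eq_one.2 a] at a1
      omega
    have a2 := PG.sup_zpowers_eq_of_relIndex_prime h.hp inf_le_left a1 hw hwZ
    have a3 : X ⊓ centralizer {w} ≤ X ⊓ 𝐂[W] := le_inf inf_le_left (by
      rw [← a2]
      exact le_cent_sup (inf_le_left.trans hXZ) (by rw [centralizer_zpowers]; exact inf_le_right))
    have a4 := FT.b4_relIndex_cent_elt_le (H := X) (N := Z) (v := w) fun g hg => by
      rw [← inv_mem_iff, commutatorElement_inv]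
      exact hZ (commutator_mem_commutator hw (hX hg))
    rcases h.inv (X ⊓ 𝐂[W]) inf_le_left (norm_inf le_normalizer (norm_cent (norm_normal _ _)))
      (norm_inf h.norm (norm_cent (norm_normal _ _))) with a | a
    · have a5 := relIndex_le_of_le_left (L := X) (a3.trans a) (index_ne_zero_of_finite)
      rw [h.idx, inf_relIndex_left] at a5
      have := h.one_lt
      omega
    · have a5 : X ≤ W := fun x hx =>
        mem_of_rank_two h.hp hH hW2 hn.ge (hexp x hx) (a.ge hx).2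
      rwa [eq_of_le_of_card_ge a5 (hn.le.trans hX2)]
  · have a1 : X ≤ W := fun x hx => by
      have a4 := FT.b4_relIndex_cent_elt_le (H := W) (N := Z) (v := x) fun g hg =>
        hZ (commutator_mem_commutator hg (hX hx))
      have a5 := relIndex_mul_relIndex ⊥ (W ⊓ centralizer {x}) W bot_le inf_le_left
      rw [relIndex_bot_left, relIndex_bot_left, hn, inf_relIndex_left] at a5
      refine (mem_of_rank_two (Y := W ⊓ centralizer {x}) h.hp hH (fun y hy => hW2 y hy.1) ?_
        (hexp x hx) (mem_cent.2 fun y hy => mem_centralizer_singleton_iff.1 hy.2)).1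
      refine Nat.le_of_mul_le_mul_right ?_ h.hp.pos
      rw [← pow_succ, ← a5]
      exact Nat.mul_le_mul_left _ (hZp ▸ a4)
    rcases (Nat.dvd_prime h.hp).1 hΦ with a | a
    · have a2 : Z ≤ X := fun z hz =>
        mem_of_rank_two h.hp hH hexp hX2 (hZe z hz) (cent_comm hXZ hz)
      rcases h.inv Z a2 (norm_normal _ _) (norm_normal _ _) with b | b
      · exact (hZ1 (le_bot_iff.1 (card_eq_one.1 a ▸ b))).elim
      · exact b ▸ hZn
    · rwa [eq_of_le_of_card_ge a1 (by rw [hn, h.card_eq, a, ← pow_succ'])]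

end XiD

end Cfsg.Agent.QT
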