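import Mathlib
import Cfsg.Agent.QT.XiGen
import Cfsg.Agent.QT.XiA

/-! # 2F-modules for the solvable uniqueness groups. -/

set_option autoImplicit false
set_option linter.unusedSectionVars false

namespace Cfsg.Agent.QT

open Cfsg Cfsg.Agent.GT Cfsg.Agent.Loc Cfsg.Agent.Loc.Mss Cfsg.Agent.Loc.Blk Subgroup
open scoped commutatorElement

variable {G : Type*} [Group G] [Finite G] {p : ℕ}

theorem XiD.gen_normal {P T Φ A : Subgroup G} [Φ.Normal] (h : XiD p P T Φ) (hAT : A ≤ T)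
    (hA : IsElementaryAbelian 2 A) (h0 : A ≠ ⊥) (hf : A ⊓ cmod P Φ = ⊥) :
    ∃ u ∈ P, ∃ t ∈ T, (Nat.card A = 2 ∧ P ≤ (A ⊔ cj(u, A) ⊔ cj(t, A ⊔ cj(u, A))) ⊔ Φ) ∨
      (Nat.card A = 4 ∧ P ≤ (A ⊔ cj(u, A)) ⊔ Φ) := by
  have := Fact.mk h.hp
  set f := QuotientGroup.mk' Φ with hf'
  have hk : f.ker = Φ := QuotientGroup.ker_mk' _
  have h' := h.map f (inf_le_right.trans hk.le)
  rw [(Subgroup.map_eq_bot_iff Φ).2 hk.ge] at h'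
  have hc : P.map f ≤ 𝐂[P.map f] := comm_eq_bot_iff.1 (le_bot_iff.1 h'.comm)
  have a1 : A ⊓ f.ker = ⊥ := eq_bot_iff.2 ((inf_le_inf_left _ (hk.le.trans (le_cmod.2
    ⟨le_normalizer, comm_le_right (norm_normal _ _)⟩))).trans hf.le)
  have a2 := th_card_map f a1 le_rfl
  obtain ⟨_, ⟨u, hu, rfl⟩, _, ⟨t, ht, rfl⟩, e⟩ := gen2 h.hp h.h2 (A := A.map f)
    ⟨le_centralizer_iff_isMulCommutative.1 hc, fun x hx => mem_bot.1 (h'.pow x hx)⟩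
    (by rw [h'.card_eq, card_bot, one_mul]) h'.norm (fun Y y1 y2 => (h'.inv Y y1
      (norm_of_cent (hc.trans (cent_anti y1))) y2).imp_left le_bot_iff.1) (map_mono hAT)
    (BH.ea_map f hA) (fun e => h0 (by rw [← card_eq_one, ← a2, e, card_bot])) (eq_bot_iff.2 (by
      rintro _ ⟨⟨a, ha, rfl⟩, h1⟩
      rw [mem_bot.1 (hf.le ⟨ha, norm_normal ⊤ _ (mem_top a), fun v hv => hk.le ?_⟩), map_one]
      · exact one_mem _
      · rw [MonoidHom.mem_ker, map_commutatorElement, commutatorElement_eq_one_iff_mul_comm]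
        exact mem_cent.1 h1 _ (mem_map_of_mem f hv)))
  refine ⟨u, hu, t, ht, e.imp (fun e => ⟨a2 ▸ e.1, ?_⟩) fun e => ⟨a2 ▸ e.1, ?_⟩⟩
  · rw [← hk, ← Subgroup.map_le_map_iff, Subgroup.map_sup, Mss.map_cj, Subgroup.map_sup,
      Mss.map_cj]
    exact e.2
  · rw [← hk, ← Subgroup.map_le_map_iff, Subgroup.map_sup, Mss.map_cj]
    exact e.2

theorem XiD.gen {P T Φ A : Subgroup G} (h : XiD p P T Φ)
    (hgen : ∀ Y ≤ P, Φ ⊔ Y = P → P ≤ Y) (hAT : A ≤ T)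
    (hA : IsElementaryAbelian 2 A) (h0 : A ≠ ⊥) (hf : A ⊓ cmod P Φ = ⊥) :
    ∃ u ∈ P, ∃ t ∈ T, (Nat.card A = 2 ∧ P ≤ A ⊔ cj(u, A) ⊔ cj(t, A ⊔ cj(u, A))) ∨
      (Nat.card A = 4 ∧ P ≤ A ⊔ cj(u, A)) := by
  have hP : P ≤ 𝐍[Φ] := h.normX le_rfl h.le
  have hAN := hAT.trans h.normΦ
  have hi := (𝐍[Φ]).subtype_injective
  have : (Φ.subgroupOf 𝐍[Φ]).Normal := normal_in_normalizer
  have eA := map_subgroupOf_eq_of_le hAN
  have eP := map_subgroupOf_eq_of_le hP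
  have eΦ : (Φ.subgroupOf 𝐍[Φ]).map (𝐍[Φ]).subtype = Φ := map_subgroupOf_eq_of_le le_normalizer
  have hc : Nat.card (A.subgroupOf 𝐍[Φ]) = Nat.card A :=
    Nat.card_congr (subgroupOfEquivOfLe hAN).toEquiv
  obtain ⟨u, hu, t, ht, e⟩ := (h.subgroupOf hP h.normΦ).gen_normal (A := A.subgroupOf 𝐍[Φ])
    (comap_mono hAT) ⟨le_centralizer_iff_isMulCommutative.1 (by
      rw [← map_le_cent_iff hi, eA]; exact ea_le_cent hA), fun a ha => Subtype.ext (hA.2 a ha)⟩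
    (fun e => h0 (by rw [← eA, e, Subgroup.map_bot])) (eq_bot_iff.2 fun a ha => mem_bot.2
      (Subtype.ext (mem_bot.1 (hf.le ⟨ha.1, a.2, fun v hv => ha.2.2 ⟨v, hP hv⟩ hv⟩))))
  have key : ∀ L : Subgroup 𝐍[Φ], P.subgroupOf 𝐍[Φ] ≤ L ⊔ Φ.subgroupOf 𝐍[Φ] →
      P ≤ L.map (𝐍[Φ]).subtype := fun L l => by
    have b1 := map_mono (f := (𝐍[Φ]).subtype) l
    rw [eP, Subgroup.map_sup, eΦ, sup_comm] at b1
    refine (hgen _ inf_le_right ?_).trans inf_le_left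
    rw [← dedekind (map_subtype_le L) h.le, inf_eq_right.2 b1]
  refine ⟨u, hu, t, ht, e.imp (fun e => ⟨hc ▸ e.1, (key _ e.2).trans_eq ?_⟩)
    fun e => ⟨hc ▸ e.1, (key _ e.2).trans_eq ?_⟩⟩
  · rw [Subgroup.map_sup, Mss.map_cj, Subgroup.map_sup, Mss.map_cj, eA]; rfl
  · rw [Subgroup.map_sup, Mss.map_cj, eA]; rfl

theorem rI_cent_sup_cj {V L : Subgroup G} {g : G} (hg : g ∈ 𝐍[V]) :
    (𝐂[L ⊔ cj(g, L)]).relIndex V ≤ (𝐂[L]).relIndex V ^ 2 := by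
  rw [cent_sup, sq]
  refine relIndex_inf_le.trans (le_of_eq ?_)
  rw [relIndex_cent_cj, cj_of_norm (inv_mem hg)]

theorem XiD.bound {P T Φ A V : Subgroup G} (h : XiD p P T Φ)
    (hgen : ∀ Y ≤ P, Φ ⊔ Y = P → P ≤ Y) (hAT : A ≤ T)
    (hA : IsElementaryAbelian 2 A) (h0 : A ≠ ⊥) (hf : A ⊓ cmod P Φ = ⊥) (hP : P ≤ 𝐍[V])
    (hT : T ≤ 𝐍[V]) (hb : (𝐂[A]).relIndex V ≤ Nat.card A ^ 2) :
    (𝐂[P]).relIndex V ≤ 256 ∧ (Nat.card A = 2 ∨ Nat.card A = 4) := by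
  obtain ⟨u, hu, t, ht, e⟩ := h.gen hgen hAT hA h0 hf
  have a1 := (rI_cent_sup_cj (L := A) (hP hu)).trans (Nat.pow_le_pow_left hb 2)
  refine ⟨?_, e.imp And.left And.left⟩
  rcases e with ⟨e1, e2⟩ | ⟨e1, e2⟩
  · rw [e1] at a1
    exact (rI_left (inf_le_left.trans (cent_anti e2))).trans ((rI_cent_sup_cj (hT ht)).trans
      (Nat.pow_le_pow_left a1 2))
  · rw [e1] at a1
    exact (rI_left (inf_le_left.trans (cent_anti e2))).trans a1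

section Pair

variable {W E : Subgroup G} (hp : p.Prime) (h5 : 5 ≤ p) (hW : IsElementaryAbelian 2 W)
  (hE : IsElementaryAbelian p E) (hc : Nat.card E = p ^ 2) (hn : E ≤ 𝐍[W]) (hf : W ⊓ 𝐂[E] = ⊥)
include hp h5 hW hE hc hn hf

theorem fix_card {Y : Subgroup G} (hY : Y ≤ E) (h : W ⊓ 𝐂[Y] ≠ ⊥) :
    ∃ k, 3 ≤ k ∧ Nat.card ↥(W ⊓ 𝐂[Y]) = 2 ^ k ∧ 2 ^ k ≡ 1 [MOD p] := by
  have := Fact.mk hp
  obtain ⟨k, hk⟩ := IsPGroup.iff_card.1 (hW.isPGroup.to_le (inf_le_left : W ⊓ 𝐂[Y] ≤ W))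
  have h1 := card_modEq_card_inf_centralizer (L := W ⊓ 𝐂[Y]) hE.isPGroup
    (norm_inf hn (norm_cent (norm_of_cent ((ea_le_cent hE).trans (cent_anti hY)))))
  rw [eq_bot_iff.2 ((inf_le_inf_right _ inf_le_left).trans hf.le), card_bot, hk] at h1
  refine ⟨k, ?_, hk, h1⟩
  by_contra hlt
  have h2 := (Nat.modEq_iff_dvd' Nat.one_le_two_pow).1 h1.symm
  have : k < 3 := by omega
  interval_cases k
  · exact h (card_eq_one.1 hk)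
  · have := Nat.le_of_dvd (by norm_num) h2; omega
  · have := Nat.le_of_dvd (by norm_num) h2; omega

theorem fix_inf {Y Z : Subgroup G} (hY : Y ≤ E) (hZ : Z ≤ E) (h1 : Y ≠ ⊥) (h2 : ¬ Z ≤ Y) :
    W ⊓ 𝐂[Y] ⊓ 𝐂[Z] = ⊥ := by
  rw [inf_assoc, ← cent_sup, sup_eq_of_sq hp hc hY hZ h1 h2, hf]

theorem fix_three (hw : Nat.card W ≤ 256) {Y₁ Y₂ Y₃ : Subgroup G} (l1 : Y₁ ≤ E) (l2 : Y₂ ≤ E)
    (l3 : Y₃ ≤ E) (n1 : Y₁ ≠ ⊥) (n2 : Y₂ ≠ ⊥) (d1 : ¬ Y₂ ≤ Y₁) (d2 : ¬ Y₃ ≤ Y₁) (d3 : ¬ Y₃ ≤ Y₂)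
    (f1 : W ⊓ 𝐂[Y₁] ≠ ⊥) (f2 : W ⊓ 𝐂[Y₂] ≠ ⊥) : W ⊓ 𝐂[Y₃] = ⊥ := by
  by_contra f3
  obtain ⟨k1, a1, b1, -⟩ := fix_card hp h5 hW hE hc hn hf l1 f1
  obtain ⟨k2, a2, b2, -⟩ := fix_card hp h5 hW hE hc hn hf l2 f2
  obtain ⟨k3, a3, b3, -⟩ := fix_card hp h5 hW hE hc hn hf l3 f3
  have hWc := ea_le_cent hW
  have hnn : ∀ U ≤ W, ∀ U' ≤ W, U ≤ 𝐍[U'] := fun U l U' l' =>
    norm_of_cent (l.trans (hWc.trans (cent_anti l')))
  have c1 : W ⊓ 𝐂[Y₁] ⊓ (W ⊓ 𝐂[Y₂]) = ⊥ := eq_bot_iff.2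
    ((inf_le_inf_left _ inf_le_right).trans (fix_inf hp h5 hW hE hc hn hf l1 l2 n1 d1).le)
  have c2 : (W ⊓ 𝐂[Y₁] ⊔ W ⊓ 𝐂[Y₂]) ⊓ (W ⊓ 𝐂[Y₃]) = ⊥ := eq_bot_iff.2 fun w hw => by
    obtain ⟨x, hx, y, hy, rfl⟩ := (mem_sup_norm (hnn _ inf_le_left _ inf_le_left)).1 hw.1
    have m : ∀ Y ≤ E, E ≤ 𝐍[W ⊓ 𝐂[Y]] := fun Y l =>
      norm_inf hn (norm_cent (norm_of_cent ((ea_le_cent hE).trans (cent_anti l))))
    have e : ∀ z ∈ Y₃, z * x * z⁻¹ = x ∧ z * y * z⁻¹ = y := fun z hz => by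
      have g1 := mem_cent.1 hw.2.2 z hz
      have g2 : x⁻¹ * (z * x * z⁻¹) = y * (z * y * z⁻¹)⁻¹ := by
        calc _ = x⁻¹ * (z * (x * y)) * z⁻¹ * (z * y * z⁻¹)⁻¹ := by group
          _ = _ := by rw [g1]; group
      have g3 : x⁻¹ * (z * x * z⁻¹) = 1 := mem_bot.1 (c1.le (mem_inf.2
        ⟨mul_mem (inv_mem hx) (conj_mem_of_norm (m _ l1 (l3 hz)) hx),
          g2 ▸ mul_mem hy (inv_mem (conj_mem_of_norm (m _ l2 (l3 hz)) hy))⟩))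
      exact ⟨(inv_mul_eq_one.1 g3).symm, (mul_inv_eq_one.1 (g2.symm.trans g3)).symm⟩
    rw [mem_bot.1 ((fix_inf hp h5 hW hE hc hn hf l1 l3 n1 d2).le ⟨hx, mem_cent.2 fun z hz =>
        mul_inv_eq_iff_eq_mul.1 (e z hz).1⟩),
      mem_bot.1 ((fix_inf hp h5 hW hE hc hn hf l2 l3 n2 d3).le ⟨hy, mem_cent.2 fun z hz =>
        mul_inv_eq_iff_eq_mul.1 (e z hz).2⟩), mul_one]
    exact one_mem _
  have l : W ⊓ 𝐂[Y₁] ⊔ W ⊓ 𝐂[Y₂] ≤ W := sup_le inf_le_left inf_le_left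
  have e1 := Loc.card_sup_mul_card_inf_of_le_normalizer (hnn _ (inf_le_left (b := 𝐂[Y₁])) _
    (inf_le_left (b := 𝐂[Y₂])))
  have e2 := Loc.card_sup_mul_card_inf_of_le_normalizer (hnn _ l _ (inf_le_left (b := 𝐂[Y₃])))
  rw [c1, card_bot, mul_one, b1, b2] at e1
  rw [c2, card_bot, mul_one, e1, b3, ← pow_add, ← pow_add] at e2
  have := (e2.ge.trans (card_le_of_le (sup_le l inf_le_left))).trans hw
  have : k1 + k2 + k3 < 9 := (Nat.pow_lt_pow_iff_right one_lt_two).1 (by omega)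
  omega

theorem fix_ne_eight {Y Z : Subgroup G} (hY : Y ≤ E) (hZ : Z ≤ E) (h1 : Y ≠ ⊥) (h2 : ¬ Z ≤ Y)
    (cZ : Nat.card Z = p) {a : G} (ha : a ^ 2 = 1) (a1 : a ∈ 𝐍[W]) (a2 : a ∈ 𝐍[Y]) (a3 : a ∈ 𝐍[Z])
    (a4 : a ∉ 𝐂[Z]) : Nat.card ↥(W ⊓ 𝐂[Y]) ≠ 8 := fun h8 => by
  classical
  set U := W ⊓ 𝐂[Y] with hU
  have hEc := ea_le_cent hE
  obtain ⟨y, hy, hy1⟩ := (Z.bot_or_exists_ne_one).resolve_left fun e => h2 (e.le.trans bot_le)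
  have b1 := inv_of_fpf (hZ.trans (hEc.trans (cent_anti hZ))) a3 ha
    ((eq_or_of_prime hp cZ inf_le_left).resolve_right fun e =>
      a4 (cent_comm (e.ge.trans inf_le_right) (mem_zpowers a))) (inv_mem hy)
  have b2 : zpowers (y * y) = Z := (eq_or_of_prime hp cZ (zpowers_le.2 (mul_mem hy hy))).resolve_left
    fun e => hy1 (by
      have c1 := orderOf_dvd_of_pow_eq_one (show y ^ 2 = 1 by rw [sq]; exact zpowers_eq_bot.1 e)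
      have c2 := orderOf_dvd_of_pow_eq_one (hE.2 y (hZ hy))
      exact orderOf_eq_one_iff.1 (Nat.eq_one_of_dvd_coprimes
        ((Nat.coprime_primes Nat.prime_two hp).2 (by omega)) c1 c2))
  have b3 : Z ≤ zpowers a ⊔ cj(y, zpowers a) := by
    rw [← b2, zpowers_le, show y * y = ⁅y, a⁻¹⁆⁻¹⁻¹ by
      rw [inv_inv, commutatorElement_def, mul_assoc, mul_assoc, ← mul_assoc a⁻¹,
        show a⁻¹ = a from inv_eq_of_mul_eq_one_right (by rw [← sq, ha]), b1, inv_inv]]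
    exact inv_mem (inv_mem (comm_mem_sup_cj (inv_mem (mem_zpowers a)) y))
  have aU : a ∈ 𝐍[U] := norm_inf (zpowers_le.2 a1) (norm_cent (zpowers_le.2 a2)) (mem_zpowers a)
  have yU : y ∈ 𝐍[U] := norm_inf hn (norm_cent (norm_of_cent (hEc.trans (cent_anti hY)))) (hZ hy)
  have b4 := rI_cent_sup_cj (L := zpowers a) yU
  have b5 : 8 ≤ (𝐂[zpowers a ⊔ cj(y, zpowers a)]).relIndex U := by
    rw [← h8, ← relIndex_bot_left]
    refine rI_left ?_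
    rw [inf_comm]
    exact (inf_le_inf_left _ (cent_anti b3)).trans (fix_inf hp h5 hW hE hc hn hf hY hZ h1 h2).le
  have hUe := hW.mono (inf_le_left : U ≤ W)
  have b6 := FF.card_commutator_zpowers_mul hUe.1 aU
  have b7 := rI_card (𝐂[zpowers a]) U
  have b8 : ⁅U, zpowers a⁆ ≤ U ⊓ 𝐂[zpowers a] := le_inf (comm_le_left (zpowers_le.2 aU)) (by
    refine commutator_le.2 fun u hu b hb => mem_cent.2 fun c hc' => ?_
    have hbn : ∀ c ∈ zpowers a, c = 1 ∨ c = a := fun c hc' => by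
      have := mem_zpowers_iff_mem_range_orderOf.1 hc'
      obtain ⟨i, hi, rfl⟩ := Finset.mem_image.1 this
      have := (Finset.mem_range.1 hi).trans_le (Nat.le_of_dvd two_pos (orderOf_dvd_of_pow_eq_one ha))
      interval_cases i <;> simp
    rcases hbn b hb with rfl | rfl
    · simp
    rcases hbn c hc' with rfl | rfl
    · simp
    have i1 : c⁻¹ = c := inv_eq_of_mul_eq_one_right (by rw [← sq, ha])
    have i2 : u⁻¹ = u := inv_eq_of_mul_eq_one_right (by rw [← sq, hUe.2 u hu])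
    have i3 := mem_cent.1 (ea_le_cent hUe hu) _ (conj_mem_of_norm aU hu)
    rw [commutatorElement_def, i1, i2]
    rw [i1] at i3
    calc c * (u * c * u * c) = (c * u * c * u) * c := by simp only [mul_assoc]
      _ = _ := by rw [i3]; simp only [mul_assoc])
  have b9 := card_le_of_le b8
  rw [← b7] at b6
  rw [Nat.eq_of_mul_eq_mul_right Nat.card_pos b6] at b9
  rw [h8] at b7
  have : (𝐂[zpowers a]).relIndex U < 3 := by nlinarith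
  have : (𝐂[zpowers a]).relIndex U ^ 2 ≤ 2 ^ 2 := Nat.pow_le_pow_left (by omega) 2
  omega

theorem fix_pair (hw : Nat.card W ≤ 256) (h0 : W ≠ ⊥) {T : Subgroup G} (hT : T ≤ 𝐍[E])
    (hTW : T ≤ 𝐍[W]) (irr : ∀ Y ≤ E, T ≤ 𝐍[Y] → Y = ⊥ ∨ Y = E) :
    ∃ Y₁ ≤ E, ∃ Y₂ ≤ E, Nat.card Y₁ = p ∧ Nat.card Y₂ = p ∧ ¬ Y₂ ≤ Y₁ ∧ W ⊓ 𝐂[Y₁] ≠ ⊥ ∧
      Nat.card ↥(W ⊓ 𝐂[Y₂]) = Nat.card ↥(W ⊓ 𝐂[Y₁]) ∧
      ∀ g ∈ 𝐍[E], g ∈ 𝐍[W] → (cj(g, Y₁) = Y₁ ∧ cj(g, Y₂) = Y₂) ∨ (cj(g, Y₁) = Y₂ ∧ cj(g, Y₂) = Y₁) := by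
  have := Fact.mk hp
  obtain ⟨k, hk⟩ := IsPGroup.iff_card.1 hW.isPGroup
  obtain ⟨y, hy, hy1, hy2⟩ := CopAct.exists_inf_centralizer_ne_bot hE.1 (fun hcy => by
    have b1 := IsCyclic.exponent_eq_card (α := E)
    have b2 : Monoid.exponent E ∣ p := Monoid.exponent_dvd_of_forall_pow_eq_one
      fun g => Subtype.ext (hE.2 g g.2)
    have := Nat.le_of_dvd hp.pos b2
    nlinarith) hn (by
      rw [hk, hc]
      exact Nat.Coprime.pow _ _ ((Nat.coprime_primes hp Nat.prime_two).2 (by omega))) h0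
  rw [← centralizer_closure, ← zpowers_eq_closure] at hy2
  set Y := zpowers y with hY
  have l1 : Y ≤ E := zpowers_le.2 hy
  have n1 : Y ≠ ⊥ := fun e => hy1 (zpowers_eq_bot.1 e)
  have n2 : Y ≠ E := fun e => hy2 (by rw [e, hf])
  have c1 := card_of_sq hp hc l1 n1 n2
  obtain ⟨t, ht, ht'⟩ : ∃ t ∈ T, ¬ cj(t, Y) ≤ Y := by
    by_contra hcon
    push Not at hcon
    exact (irr _ l1 (norm_of_forall_cj_le hcon)).elim n1 n2
  have fc : ∀ g ∈ 𝐍[W], ∀ Z : Subgroup G, W ⊓ 𝐂[cj(g, Z)] = cj(g, W ⊓ 𝐂[Z]) := fun g hg Z => by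
    rw [Mss.cj_inf, Mss.cj_cent, cj_of_norm hg]
  have l2 := cj_le_of_norm l1 (hT ht)
  have c2 := (Mss.card_cj Y t).trans c1
  have f2 : W ⊓ 𝐂[cj(t, Y)] ≠ ⊥ := by rw [fc t (hTW ht), ne_eq, cj_eq_bot]; exact hy2
  have key : ∀ g ∈ 𝐍[E], g ∈ 𝐍[W] → ∀ Z ≤ E, Nat.card Z = p → W ⊓ 𝐂[Z] ≠ ⊥ →
      cj(g, Z) = Y ∨ cj(g, Z) = cj(t, Y) := fun g g1 g2 Z z1 z2 z3 => by
    by_contra hcon
    push Not at hcon
    have c3 := (Mss.card_cj Z g).trans z2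
    refine z3 (cj_eq_bot.1 ((fc g g2 Z).symm.trans (fix_three hp h5 hW hE hc hn hf hw l1 l2
      (cj_le_of_norm z1 g1) n1 (fun e => n1 (cj_eq_bot.1 e)) ht'
      (fun l => hcon.1 (Loc.eq_of_le_of_card_le l (c1.trans c3.symm).le))
      (fun l => hcon.2 (Loc.eq_of_le_of_card_le l (c2.trans c3.symm).le)) hy2 f2)))
  refine ⟨Y, l1, _, l2, c1, c2, ht', hy2, by rw [fc t (hTW ht), Mss.card_cj], fun g g1 g2 => ?_⟩
  have hne : cj(g, Y) ≠ cj(g, cj(t, Y)) := fun e => ht' (cj_eq_cj.1 e).ge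
  rcases key g g1 g2 _ l1 c1 hy2 with a | a <;> rcases key g g1 g2 _ l2 c2 f2 with b | b
  · exact absurd (a.trans b.symm) hne
  · exact Or.inl ⟨a, b⟩
  · exact Or.inr ⟨a, b⟩
  · exact absurd (a.trans b.symm) hne

end Pair

theorem XiD.module {P T Φ A V : Subgroup G} (h : XiD p P T Φ) (h3 : p ≠ 3) (hPp : IsPGroup p P)
    (hgen : ∀ Y ≤ P, Φ ⊔ Y = P → P ≤ Y) (hAT : A ≤ T)
    (hA : IsElementaryAbelian 2 A) (h0 : A ≠ ⊥) (hf : A ⊓ cmod P Φ = ⊥)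
    (hV : IsElementaryAbelian 2 V) (hP : P ≤ 𝐍[V]) (hPV : P ⊓ 𝐂[V] = ⊥)
    (hT : T ≤ 𝐍[V]) (hb : (𝐂[A]).relIndex V ≤ Nat.card A ^ 2) :
    p = 5 ∧ Φ = ⊥ ∧ ∀ g ∈ 𝐍[P], g ∈ 𝐍[V] → Odd (orderOf g) →
      ∃ Y ≤ P, Nat.card Y = p ∧ g ∈ 𝐍[Y] := by
  have hp := h.hp
  have := Fact.mk hp
  obtain ⟨b1, b2⟩ := h.bound hgen hAT hA h0 hf hP hT hb
  have h5 : 5 ≤ p := hp.five_le_of_ne_two_of_ne_three h.h2 h3
  obtain ⟨k, hk⟩ := IsPGroup.iff_card.1 hV.isPGroup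
  obtain ⟨m, hm⟩ := IsPGroup.iff_card.1 hPp
  have hcop : (Nat.card P).Coprime (Nat.card V) := by
    rw [hk, hm]
    exact Nat.Coprime.pow _ _ ((Nat.coprime_primes hp Nat.prime_two).2 h.h2)
  set W := ⁅V, P⁆ with hWd
  have w1 : W ≤ V := comm_le_left hP
  have hW := hV.mono w1
  have w2 : Nat.card W ≤ 256 := by
    have := CopAct.card_eq_card_commutator_mul_card_centralizer hV.1 hP hcop
    rw [← rI_card (𝐂[P]) V] at this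
    exact (Nat.eq_of_mul_eq_mul_right Nat.card_pos this).ge.trans b1
  have w3 : W ⊓ 𝐂[P] = ⊥ := CopAct.commutator_inf_centralizer_eq_bot hV.1 hP hcop
  have w4 : P ≤ 𝐍[W] := ncl_right _ _
  have w5 : P ⊓ 𝐂[W] = ⊥ := eq_bot_iff.2 (le_trans (le_inf inf_le_left (by
    rw [← CopAct.commutator_sup_centralizer hP hcop (Or.inl (by have := hPp.isNilpotent; infer_instance)), cent_sup]
    exact le_inf inf_le_right (inf_le_left.trans (cent_comm inf_le_right)))) hPV.le)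
  have d1 := card_dvd_gl8 hW w2 w4 w5
  have d2 : p ∣ 2 ^ 28 * 3 ^ 5 * 5 ^ 2 * 7 ^ 2 * 17 * 31 * 127 :=
    ((dvd_pow_self p two_ne_zero).trans (Dvd.intro_left _ h.card_eq.symm)).trans d1
  have d3 : p ^ 2 ∣ 2 ^ 28 * 3 ^ 5 * 5 ^ 2 * 7 ^ 2 * 17 * 31 * 127 :=
    (Dvd.intro_left _ h.card_eq.symm).trans d1
  have h57 : p = 5 ∨ p = 7 := by
    simp only [hp.dvd_mul] at d2
    rcases d2 with (((((d | d) | d) | d) | d) | d) | d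
    · exact absurd ((Nat.prime_dvd_prime_iff_eq hp Nat.prime_two).1 (hp.dvd_of_dvd_pow d)) h.h2
    · exact absurd ((Nat.prime_dvd_prime_iff_eq hp Nat.prime_three).1 (hp.dvd_of_dvd_pow d)) h3
    · exact Or.inl ((Nat.prime_dvd_prime_iff_eq hp Nat.prime_five).1 (hp.dvd_of_dvd_pow d))
    · exact Or.inr ((Nat.prime_dvd_prime_iff_eq hp (by norm_num)).1 (hp.dvd_of_dvd_pow d))
    all_goals
      rw [(Nat.prime_dvd_prime_iff_eq hp (by norm_num)).1 d] at d3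
      norm_num at d3
  have hΦ : Φ = ⊥ := by
    by_contra hc
    obtain ⟨j, hj⟩ := IsPGroup.iff_card.1 (hPp.to_le h.le)
    have : p * p ^ 2 ∣ Nat.card P := h.card_eq ▸ Nat.mul_dvd_mul_right
      (hj ▸ dvd_pow_self p fun e => hc (card_eq_one.1 (by rw [hj, e, pow_zero]))) _
    have := this.trans d1
    rcases h57 with rfl | rfl <;> norm_num at this
  subst hΦ
  have hc : Nat.card P = p ^ 2 := by rw [h.card_eq, card_bot, one_mul]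
  have hPc : P ≤ 𝐂[P] := comm_eq_bot_iff.1 (le_bot_iff.1 h.comm)
  have hE : IsElementaryAbelian p P :=
    ⟨le_centralizer_iff_isMulCommutative.1 hPc, fun x hx => mem_bot.1 (h.pow x hx)⟩
  have hTW : T ≤ 𝐍[W] := norm_comm hT h.norm
  obtain ⟨Y₁, l1, Y₂, l2, c1, c2, n1, f1, f2, hg⟩ := fix_pair hp h5 hW hE hc w4 w3 w2
    (fun e => h.not_le ((le_inf le_rfl (comm_eq_bot_iff'.1 e)).trans hPV.le)) h.norm hTW
    fun Y y1 y2 => (h.inv Y y1 (norm_of_cent (hPc.trans (cent_anti y1))) y2).imp_left le_bot_iff.1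
  have m1 : Y₁ ≠ ⊥ := fun e => by rw [e, card_bot] at c1; omega
  have m2 : Y₂ ≠ ⊥ := fun e => by rw [e, card_bot] at c2; omega
  have n2 : ¬ Y₁ ≤ Y₂ := fun l => n1 (Loc.eq_of_le_of_card_le l (c2.trans c1.symm).le).ge
  refine ⟨h57.resolve_right fun e7 => ?_, rfl, fun g g1 g2 g3 => ⟨Y₁, l1, c1, ?_⟩⟩
  swap
  · rcases hg g g1 (norm_comm (zpowers_le.2 g2) (zpowers_le.2 g1) (mem_zpowers g)) with a | a
    · exact cj_eq_iff.1 a.1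
    · refine mem_of_pow_mem (p := 2) (k := 1) (Nat.coprime_two_right.2 g3) (cj_eq_iff.1 ?_)
      rw [pow_one, sq, ← Mss.cj_cj, a.1, a.2]
  have i0 := fix_inf hp h5 hW hE hc w4 w3 l1 l2 m1 n1
  have h8 : Nat.card ↥(W ⊓ 𝐂[Y₁]) = 8 := by
    obtain ⟨j, j1, j2, j3⟩ := fix_card hp h5 hW hE hc w4 w3 l1 f1
    have := CopAct.card_mul_card_le_of_le (inf_le_left : W ⊓ 𝐂[Y₁] ≤ W) (inf_le_left : W ⊓ 𝐂[Y₂] ≤ W)
    rw [eq_bot_iff.2 ((inf_le_inf_left _ inf_le_right).trans i0.le), card_bot, f2, j2,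
      ← pow_add] at this
    have : j + j < 9 := (Nat.pow_lt_pow_iff_right one_lt_two).1 (by omega)
    have : j < 5 := by omega
    subst e7
    rw [j2]
    interval_cases j
    · rfl
    · exact absurd j3 (by decide)
  have hA' := fun a (ha : a ∈ A) => hg a (h.norm (hAT ha)) (hTW (hAT ha))
  obtain ⟨a, ⟨ha, a1⟩, a0⟩ := ((A ⊓ 𝐍[Y₁]).bot_or_exists_ne_one).resolve_left fun e => by
    have i1 : (𝐍[Y₁]).relIndex A ≤ 2 := rI_le_two fun x hx y hy hx' hy' => cj_eq_iff.1 (by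
      rw [← Mss.cj_cj, ((hA' y hy).resolve_left fun l => hy' (cj_eq_iff.1 l.1)).1,
        ((hA' x hx).resolve_left fun l => hx' (cj_eq_iff.1 l.1)).2])
    have i2 := rI_card (𝐍[Y₁]) A
    rw [e, card_bot] at i2
    obtain ⟨a, ha, a0⟩ := (A.bot_or_exists_ne_one).resolve_left h0
    have i3 := ((hA' a ha).resolve_left fun l => a0 (mem_bot.1 (e.le ⟨ha, cj_eq_iff.1 l.1⟩))).1
    have i4 : (𝐂[A]).relIndex (W ⊓ 𝐂[Y₁]) = 8 := by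
      rw [← h8, ← rI_card (𝐂[A]) (W ⊓ 𝐂[Y₁]), eq_bot_iff.2 (le_trans (le_inf inf_le_left ?_) i0.le),
        card_bot, mul_one]
      rw [← i3, ← Mss.cj_cent, ← cj_of_cent (cent_comm (inf_le_right : W ⊓ 𝐂[Y₁] ⊓ 𝐂[A] ≤ _) ha)]
      exact cj_mono a (inf_le_left.trans inf_le_right)
    have i5 := (rI_right (A := 𝐂[A]) (inf_le_left.trans w1 : W ⊓ 𝐂[Y₁] ≤ V)).trans hb
    have : Nat.card A = 2 := by omega
    rw [i4, this] at i5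
    omega
  have a2 : a ∈ 𝐍[Y₂] := cj_eq_iff.1 ((hA' a ha).resolve_right fun l =>
    n1 (l.1.symm.trans (cj_of_norm a1)).le).2
  by_cases a3 : a ∈ 𝐂[Y₂]
  · refine fix_ne_eight hp h5 hW hE hc w4 w3 l2 l1 m2 n2 c1 (hA.2 a ha) (hTW (hAT ha)) a2 a1
      (fun a4 => a0 (mem_bot.1 (hf.le ⟨ha, norm_normal ⊤ _ (mem_top a), fun v hv => ?_⟩)))
      (f2.trans h8)
    have : a ∈ 𝐂[P] := by rw [← sup_eq_of_sq hp hc l1 l2 m1 n1, cent_sup]; exact ⟨a4, a3⟩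
    exact mem_bot.2 (commutatorElement_eq_one_iff_mul_comm.2 (mem_cent.1 this v hv))
  · exact fix_ne_eight hp h5 hW hE hc w4 w3 l1 l2 m1 n1 c2 (hA.2 a ha) (hTW (hAT ha)) a1 a2 a3 h8

end Cfsg.Agent.QT
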